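import Mathlib
import Cfsg.Agent.Helper21.N2RDefs

/-!
# CALL S2249, piece R1 (helper3): `ring_core`

A pure noncommutative ring identity.  Words in `a, E, J` are normalised by the convergent
rewriting system `EE → E, EJ → J, JE → J, JJ → -E, aa → 1, aEaE → EaEa, EaEaJ → aEaJ`
(the last two come from `hz`); the consequences of `hc` are then additive combinations.
-/

set_option autoImplicit false
set_option linter.unusedSimpArgs false

namespace Cfsg.Agent.Helper3.N2RR1

open Matrix Cfsg.Agent.Helper21.N2R

/-- R1 -/
theorem ring_core {R : Type*} [Ring R] (h2 : ∀ x : R, x + x = 0 → x = 0) (a E J g g' : R)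
    (haa : a * a = 1) (hEE : E * E = E) (hEJ : E * J = J) (hJE : J * E = J) (hJJ : J * J = -E)
    (hg : g = 1 - E + J) (hg' : g' = 1 - E - J)
    (hz : a * (g * g * a * (g' * g')) = (g * g * a * (g' * g')) * a)
    (hc : a * (g * a * g') = (g * a * g') * a) : a * E = E * a := by
  subst hg hg'
  have haa' : ∀ t : R, a * (a * t) = t := fun t => by rw [← mul_assoc, haa, one_mul]
  have hEE' : ∀ t : R, E * (E * t) = E * t := fun t => by rw [← mul_assoc, hEE]
  have hEJ' : ∀ t : R, E * (J * t) = J * t := fun t => by rw [← mul_assoc, hEJ]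
  have hJE' : ∀ t : R, J * (E * t) = J * t := fun t => by rw [← mul_assoc, hJE]
  have hJJ' : ∀ t : R, J * (J * t) = -(E * t) := fun t => by rw [← mul_assoc, hJJ, neg_mul]
  -- the relation `aEaE = EaEa` from `hz`
  have hw4 : (a * (E * (a * E)) - E * (a * (E * a))) + (a * (E * (a * E)) - E * (a * (E * a))) +
      ((a * (E * (a * E)) - E * (a * (E * a))) + (a * (E * (a * E)) - E * (a * (E * a)))) = 0 := by
    have e := sub_eq_zero.mpr hz
    simp only [mul_add, add_mul, mul_sub, sub_mul, mul_neg, neg_mul, neg_neg, mul_one, one_mul,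
      mul_zero, zero_mul, mul_assoc, hEE, hEJ, hJE, hJJ, haa, hEE', hEJ', hJE', hJJ', haa'] at e
    linear_combination (norm := abel) e
  have star : a * (E * (a * E)) = E * (a * (E * a)) := sub_eq_zero.mp (h2 _ (h2 _ hw4))
  have star' : ∀ t : R, a * (E * (a * (E * t))) = E * (a * (E * (a * t))) := fun t => by
    have h := congrArg (· * t) star
    simpa only [mul_assoc] using h
  have starJ : E * (a * (E * (a * J))) = a * (E * (a * J)) := by
    have h := star' J
    rw [hEJ] at h
    exact h.symm
  have starJ' : ∀ t : R, E * (a * (E * (a * (J * t)))) = a * (E * (a * (J * t))) := fun t => by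
    have h := congrArg (· * t) starJ
    simpa only [mul_assoc] using h
  -- the relation from `hc`
  have hc0 := sub_eq_zero.mpr hc
  -- `X + Y = 0`
  have F1 : (E * (a * J) - E * (a * (J * (a * (E * a))))) +
      (J * (a * J) - J * (a * (J * (a * (E * a))))) = 0 := by
    have e := congrArg (fun x => E * x * (a * E - E * a * E)) hc0
    simp only [mul_add, add_mul, mul_sub, sub_mul, mul_neg, neg_mul, neg_neg, mul_one, one_mul,
      mul_zero, zero_mul, mul_assoc, hEE, hEJ, hJE, hJJ, haa, hEE', hEJ', hJE', hJJ', haa',
      star, star', starJ, starJ'] at e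
    linear_combination (norm := abel) e
  -- `Y - X = 0`
  have F2 : (J * (a * J) - J * (a * (J * (a * (E * a))))) -
      (E * (a * J) - E * (a * (J * (a * (E * a))))) = 0 := by
    have e := congrArg (fun x => J * x) F1
    simp only [mul_add, add_mul, mul_sub, sub_mul, mul_neg, neg_mul, neg_neg, mul_one, one_mul,
      mul_zero, zero_mul, mul_assoc, hEE, hEJ, hJE, hJJ, haa, hEE', hEJ', hJE', hJJ', haa',
      star, star', starJ, starJ'] at e
    linear_combination (norm := abel) e
  have hX : E * (a * J) - E * (a * (J * (a * (E * a)))) = 0 := by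
    apply h2
    linear_combination (norm := abel) F1 - F2
  -- `PJP = 0`
  have F3 : (J - J * (a * (E * a)) - a * (E * (a * J)) + a * (E * (a * (J * (a * (E * a)))))) +
      (J - J * (a * (E * a)) - a * (E * (a * J)) + a * (E * (a * (J * (a * (E * a)))))) = 0 := by
    have e := congrArg (fun x => (E - E * (a * (E * a))) * x * (E - E * (a * (E * a)))) hc0
    simp only [mul_add, add_mul, mul_sub, sub_mul, mul_neg, neg_mul, neg_neg, mul_one, one_mul,
      mul_zero, zero_mul, mul_assoc, hEE, hEJ, hJE, hJJ, haa, hEE', hEJ', hJE', hJJ', haa',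
      star, star', starJ, starJ'] at e
    linear_combination (norm := abel) (-1 : ℤ) • e
  have hPJP := h2 _ F3
  -- `al al J P = 0`
  have F4 : a * (E * (a * J)) - a * (E * (a * (J * (a * (E * a))))) = 0 := by
    have e1 := congrArg (fun x => (E * a * E * a * E) * x * (E - E * (a * (E * a)))) hc0
    have e2 := congrArg (fun x => (E * a * E * a * E * a * E * J) * x) hX
    simp only [mul_add, add_mul, mul_sub, sub_mul, mul_neg, neg_mul, neg_neg, mul_one, one_mul,
      mul_zero, zero_mul, mul_assoc, hEE, hEJ, hJE, hJJ, haa, hEE', hEJ', hJE', hJJ', haa',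
      star, star', starJ, starJ'] at e1 e2
    linear_combination (norm := abel) (-1 : ℤ) • e1 - e2
  -- `J P = 0`
  have F5 : J - J * (a * (E * a)) = 0 := by
    linear_combination (norm := abel) F4 + hPJP
  -- `P = 0`
  have F6 : E - E * (a * (E * a)) = 0 := by
    have e := congrArg (fun x => J * x) F5
    simp only [mul_add, add_mul, mul_sub, sub_mul, mul_neg, neg_mul, neg_neg, mul_one, one_mul,
      mul_zero, zero_mul, mul_assoc, hEE, hEJ, hJE, hJJ, haa, hEE', hEJ', hJE', hJJ', haa',
      star, star', starJ, starJ'] at e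
    linear_combination (norm := abel) (-1 : ℤ) • e
  -- conclusion
  have e1 := congrArg (fun x => (a * E - E * a * E) * x) F6
  have e2 := congrArg (fun x => x * (E * a - E * a * E)) F6
  simp only [mul_add, add_mul, mul_sub, sub_mul, mul_neg, neg_mul, neg_neg, mul_one, one_mul,
    mul_zero, zero_mul, mul_assoc, hEE, hEJ, hJE, hJJ, haa, hEE', hEJ', hJE', hJJ', haa',
    star, star', starJ, starJ'] at e1 e2
  linear_combination (norm := abel) e1 - e2

end Cfsg.Agent.Helper3.N2RR1
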