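import Cfsg.Agent.Helper3.AicDefs

set_option autoImplicit false

/-!
Basic structure of a finite group with abelian involution centralizers (S2202):
Sylow 2-subgroups are abelian, pairwise trivially intersecting, two involutions of different
Sylow subgroups have a product of odd order and are swapped by a unique involution.
-/

namespace Cfsg.Agent.Helper3

open Subgroup

variable {G : Type*} [Group G]

theorem aic_mem_smul {g x : G} {P : Sylow 2 G} :
    x ∈ (g • P : Sylow 2 G) ↔ g⁻¹ * x * g ∈ P := by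
  have h1 : x ∈ (g • P : Sylow 2 G) ↔ x ∈ ((g • P : Sylow 2 G) : Subgroup G) := Iff.rfl
  rw [h1, Sylow.coe_subgroup_smul, Subgroup.mem_pointwise_smul_iff_inv_smul_mem]
  simp [MulAut.smul_def]
  exact Iff.rfl

theorem aic_conj_mem_smul {g x : G} {P : Sylow 2 G} (hx : x ∈ P) :
    g * x * g⁻¹ ∈ (g • P : Sylow 2 G) := by
  rw [aic_mem_smul]; simpa [mul_assoc] using hx

theorem aic_orderOf_conj (g x : G) : orderOf (g * x * g⁻¹) = orderOf x := by
  simpa using orderOf_injective (MulAut.conj g).toMonoidHom (MulAut.conj g).injective x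

theorem aic_inv_sq {t : G} (ht : orderOf t = 2) : t * t = 1 := by
  have := pow_orderOf_eq_one t; rw [ht, pow_two] at this; exact this

theorem aic_inv_inv {t : G} (ht : orderOf t = 2) : t⁻¹ = t :=
  inv_eq_of_mul_eq_one_left (aic_inv_sq ht)

theorem aic_inv_ne_one {t : G} (ht : orderOf t = 2) : t ≠ 1 := by
  rintro rfl; simp at ht

theorem aic_orderOf_two {v : G} (h1 : v * v = 1) (h2 : v ≠ 1) : orderOf v = 2 := by
  have : Fact (Nat.Prime 2) := ⟨Nat.prime_two⟩
  exact orderOf_eq_prime (by rw [pow_two]; exact h1) h2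

theorem aic_isPGroup_zpowers_of_two {t : G} (ht : orderOf t = 2) : IsPGroup 2 (zpowers t) := by
  have : Fact (Nat.Prime 2) := ⟨Nat.prime_two⟩
  apply IsPGroup.of_card (n := 1)
  rw [Nat.card_zpowers, ht]; rfl

/-- a 2-element normalizing a Sylow 2-subgroup lies in it -/
theorem aic_mem_of_normalizes {P : Sylow 2 G} {x : G} (hx : IsPGroup 2 (zpowers x))
    (hn : x • P = P) : x ∈ P := by
  have hle : zpowers x ≤ normalizer ((P : Subgroup G) : Set G) := by
    rw [zpowers_le]; exact Sylow.smul_eq_iff_mem_normalizer.mp hn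
  have h1 : IsPGroup 2 (zpowers x ⊔ (P : Subgroup G) : Subgroup G) :=
    hx.to_sup_of_normal_right' P.2 hle
  have h2 := P.3 h1 le_sup_right
  have : x ∈ (zpowers x ⊔ (P : Subgroup G) : Subgroup G) :=
    (le_sup_left : zpowers x ≤ _) (mem_zpowers x)
  rw [h2] at this; exact this

theorem aic_inv_mem_of_fix {P : Sylow 2 G} {t : G} (ht : orderOf t = 2) (hn : t • P = P) :
    t ∈ P :=
  aic_mem_of_normalizes (aic_isPGroup_zpowers_of_two ht) hn

theorem aic_cent_le_norm {H : Subgroup G} {c : G} (hc : c ∈ centralizer (H : Set G)) :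
    c ∈ normalizer (H : Set G) := by
  rw [mem_normalizer_iff]
  intro x
  rw [mem_centralizer_iff] at hc
  constructor
  · intro hx
    have := hc x hx
    have h2 : c * x * c⁻¹ = x := by rw [← this]; group
    rw [h2]; exact hx
  · intro hx
    have := hc _ hx
    have h2 : c * x * c⁻¹ = x := by
      have h3 : c * x * c⁻¹ * c = c * (c * x * c⁻¹) := this
      have h4 : c * x = c * (c * x * c⁻¹) := by rw [← h3]; group
      exact (mul_left_cancel h4).symm
    rw [← h2]; exact hx

theorem aic_smul_eq_of_centralizes {P : Sylow 2 G} {c : G}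
    (hc : c ∈ centralizer ((P : Subgroup G) : Set G)) : c • P = P :=
  Sylow.smul_eq_iff_mem_normalizer.mpr (aic_cent_le_norm hc)

theorem aic_two_dvd_orderOf {P : Sylow 2 G} {x : G} (hx : x ∈ P) (hx1 : x ≠ 1) :
    2 ∣ orderOf x := by
  obtain ⟨k, hk⟩ := P.2 ⟨x, hx⟩
  have hk' : x ^ (2 ^ k) = 1 := by
    have := congrArg Subtype.val hk; simpa using this
  have hdvd : orderOf x ∣ 2 ^ k := orderOf_dvd_of_pow_eq_one hk'
  obtain ⟨j, -, hj⟩ := (Nat.dvd_prime_pow Nat.prime_two).mp hdvd
  rcases Nat.eq_zero_or_pos j with h0 | h0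
  · subst h0; simp at hj; exact absurd hj hx1
  · rw [hj]; exact dvd_pow_self 2 (by omega)

theorem aic_pow_involution [Finite G] {x : G} (hx : 2 ∣ orderOf x) :
    orderOf (x ^ (orderOf x / 2)) = 2 := by
  have hpos : 0 < orderOf x := orderOf_pos x
  have hn : orderOf x / 2 ≠ 0 := by
    obtain ⟨k, hk⟩ := hx; omega
  rw [orderOf_pow_of_dvd hn (Nat.div_dvd_of_dvd hx)]
  exact Nat.div_div_self hx (by omega)

theorem aic_comm_of_mem (h : AbInvCent G) {t x y : G} (ht : orderOf t = 2)
    (hx : x * t = t * x) (hy : y * t = t * y) : x * y = y * x := by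
  have hx' : x ∈ centralizer ({t} : Set G) := by
    rw [mem_centralizer_singleton_iff]; exact hx
  have hy' : y ∈ centralizer ({t} : Set G) := by
    rw [mem_centralizer_singleton_iff]; exact hy
  have := (h t ht).is_comm.comm ⟨x, hx'⟩ ⟨y, hy'⟩
  exact congrArg Subtype.val this

variable [Finite G]

/-- Sylow 2-subgroups are abelian. -/
theorem aic_sylow_comm (h : AbInvCent G) (P : Sylow 2 G) {x y : G} (hx : x ∈ P) (hy : y ∈ P) :
    x * y = y * x := by
  by_cases hP : (P : Subgroup G) = ⊥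
  · have hx' : x ∈ (P : Subgroup G) := hx
    have hy' : y ∈ (P : Subgroup G) := hy
    rw [hP, mem_bot] at hx' hy'; rw [hx', hy']
  · have : Nontrivial (P : Subgroup G) := (Subgroup.nontrivial_iff_ne_bot _).mpr hP
    have : Fact (Nat.Prime 2) := ⟨Nat.prime_two⟩
    have := IsPGroup.center_nontrivial P.2
    obtain ⟨z, hz1⟩ := exists_ne (1 : center (P : Subgroup G))
    have hzc : ∀ y : (P : Subgroup G), y * (z : (P : Subgroup G)) = (z : (P : Subgroup G)) * y :=
      fun y => (mem_center_iff.mp z.2 y)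
    set z0 : G := ((z : (P : Subgroup G)) : G) with hz0
    have hz0P : z0 ∈ P := (z : (P : Subgroup G)).2
    have hz0ne : z0 ≠ 1 := by
      intro h1; apply hz1; apply Subtype.ext; apply Subtype.ext; exact h1
    have hz0c : ∀ y ∈ P, y * z0 = z0 * y := by
      intro y hy
      have := congrArg Subtype.val (hzc ⟨y, hy⟩); simpa using this
    set v : G := z0 ^ (orderOf z0 / 2) with hv
    have hv2 : orderOf v = 2 := aic_pow_involution (aic_two_dvd_orderOf hz0P hz0ne)
    have hvc : ∀ y ∈ P, y * v = v * y := by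
      intro y hy
      exact (Commute.pow_right (hz0c y hy) _)
    exact aic_comm_of_mem h hv2 (hvc x hx) (hvc y hy)

theorem aic_centralizer_eq (h : AbInvCent G) {P : Sylow 2 G} {t : G} (ht : orderOf t = 2)
    (htP : t ∈ P) : centralizer ({t} : Set G) = centralizer ((P : Subgroup G) : Set G) := by
  apply le_antisymm
  · intro x hx
    rw [mem_centralizer_singleton_iff] at hx
    rw [mem_centralizer_iff]
    intro y hy
    have hyt : y * t = t * y := aic_sylow_comm h P hy htP
    exact aic_comm_of_mem h ht hyt hx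
  · intro x hx
    rw [mem_centralizer_iff] at hx
    rw [mem_centralizer_singleton_iff]
    exact (hx t htP).symm

theorem aic_mem_centralizer_of_comm (h : AbInvCent G) {P : Sylow 2 G} {t x : G}
    (ht : orderOf t = 2) (htP : t ∈ P) (hx : x * t = t * x) :
    x ∈ centralizer ((P : Subgroup G) : Set G) := by
  rw [← aic_centralizer_eq h ht htP, mem_centralizer_singleton_iff]; exact hx

/-- Two Sylow 2-subgroups sharing an involution are equal. -/
theorem aic_sylow_eq_of_inv (h : AbInvCent G) {P Q : Sylow 2 G} {t : G} (ht : orderOf t = 2)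
    (hP : t ∈ P) (hQ : t ∈ Q) : P = Q := by
  have hle : (Q : Subgroup G) ≤ normalizer ((P : Subgroup G) : Set G) := by
    intro y hy
    exact aic_cent_le_norm (aic_mem_centralizer_of_comm h ht hP (aic_sylow_comm h Q hy hQ))
  have h1 : IsPGroup 2 ((Q : Subgroup G) ⊔ (P : Subgroup G) : Subgroup G) :=
    Q.2.to_sup_of_normal_right' P.2 hle
  have h2 := P.3 h1 le_sup_right
  have h3 : (Q : Subgroup G) ≤ P := by rw [← h2]; exact le_sup_left
  have h4 := Q.3 P.2 h3
  exact Sylow.ext h4

theorem aic_sylow_eq_of_mem (h : AbInvCent G) {P Q : Sylow 2 G} {x : G} (hx1 : x ≠ 1)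
    (hP : x ∈ P) (hQ : x ∈ Q) : P = Q := by
  have h2 := aic_pow_involution (aic_two_dvd_orderOf hP hx1)
  exact aic_sylow_eq_of_inv h h2 (pow_mem hP _) (pow_mem hQ _)

theorem aic_inv_fix_unique (h : AbInvCent G) {P Q : Sylow 2 G} {t : G} (ht : orderOf t = 2)
    (htP : t ∈ P) (hQ : t • Q = Q) : Q = P :=
  aic_sylow_eq_of_inv h ht (aic_inv_mem_of_fix ht hQ) htP

theorem aic_smul_eq_of_conj (h : AbInvCent G) {P Q : Sylow 2 G} {t w : G} (ht : orderOf t = 2)
    (htP : t ∈ P) (hs : w * t * w⁻¹ ∈ Q) : w • P = Q :=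
  aic_sylow_eq_of_inv h (by rw [aic_orderOf_conj]; exact ht) (aic_conj_mem_smul htP) hs

/-- An element fixing two distinct Sylow 2-subgroups has odd order. -/
theorem aic_odd_of_fix_two (h : AbInvCent G) {P Q : Sylow 2 G} (hPQ : P ≠ Q) {d : G}
    (hP : d • P = P) (hQ : d • Q = Q) : Odd (orderOf d) := by
  by_contra hodd
  have h2 : 2 ∣ orderOf d := by
    rcases Nat.even_or_odd (orderOf d) with he | ho
    · exact even_iff_two_dvd.mp he
    · exact absurd ho hodd
  have hv := aic_pow_involution h2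
  have hvP : (d ^ (orderOf d / 2)) • P = P := by
    apply Sylow.smul_eq_iff_mem_normalizer.mpr
    exact pow_mem (Sylow.smul_eq_iff_mem_normalizer.mp hP) _
  have hvQ : (d ^ (orderOf d / 2)) • Q = Q := by
    apply Sylow.smul_eq_iff_mem_normalizer.mpr
    exact pow_mem (Sylow.smul_eq_iff_mem_normalizer.mp hQ) _
  exact hPQ (aic_sylow_eq_of_inv h hv (aic_inv_mem_of_fix hv hvP) (aic_inv_mem_of_fix hv hvQ))

/-- The product of two involutions from different Sylow 2-subgroups has odd order. -/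
theorem aic_odd_mul (h : AbInvCent G) {P Q : Sylow 2 G} (hPQ : P ≠ Q) {t u : G}
    (ht : orderOf t = 2) (hu : orderOf u = 2) (htP : t ∈ P) (huQ : u ∈ Q) :
    Odd (orderOf (t * u)) := by
  by_contra hodd
  have h2 : 2 ∣ orderOf (t * u) := by
    rcases Nat.even_or_odd (orderOf (t * u)) with he | ho
    · exact even_iff_two_dvd.mp he
    · exact absurd ho hodd
  set v := (t * u) ^ (orderOf (t * u) / 2) with hvdef
  have hv : orderOf v = 2 := aic_pow_involution h2
  have hvv : v⁻¹ = v := aic_inv_inv hv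
  have hti := aic_inv_inv ht
  have hui := aic_inv_inv hu
  have h1 : t * (t * u) * t⁻¹ = (t * u)⁻¹ := by
    rw [mul_inv_rev, hti, hui, ← mul_assoc, aic_inv_sq ht, one_mul]
  have h1' : u * (t * u) * u⁻¹ = (t * u)⁻¹ := by
    rw [mul_inv_rev, hti, hui, mul_assoc, mul_assoc, aic_inv_sq hu, mul_one]
  have hvt : t * v * t⁻¹ = v := by
    rw [hvdef, ← conj_pow, h1, inv_pow, ← hvdef, hvv]
  have hvu : u * v * u⁻¹ = v := by
    rw [hvdef, ← conj_pow, h1', inv_pow, ← hvdef, hvv]
  have hvt' : v * t = t * v := by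
    have := congrArg (· * t) hvt; simp at this; exact this.symm
  have hvu' : v * u = u * v := by
    have := congrArg (· * u) hvu; simp at this; exact this.symm
  have hvP : v ∈ P := aic_inv_mem_of_fix hv
    (aic_smul_eq_of_centralizes (aic_mem_centralizer_of_comm h ht htP hvt'))
  have hvQ : v ∈ Q := aic_inv_mem_of_fix hv
    (aic_smul_eq_of_centralizes (aic_mem_centralizer_of_comm h hu huQ hvu'))
  exact hPQ (aic_sylow_eq_of_inv h hv hvP hvQ)

theorem aic_exists_inv_mem {P : Sylow 2 G} (hP : (P : Subgroup G) ≠ ⊥) :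
    ∃ t ∈ P, orderOf t = 2 := by
  obtain ⟨x, hx1⟩ := (Subgroup.ne_bot_iff_exists_ne_one).mp hP
  refine ⟨(x : G) ^ (orderOf (x : G) / 2), pow_mem x.2 _, ?_⟩
  apply aic_pow_involution
  apply aic_two_dvd_orderOf x.2
  intro h1; apply hx1; exact Subtype.ext h1

omit [Finite G] in
theorem aic_ne_bot_of_ne {P Q : Sylow 2 G} (hPQ : P ≠ Q) : (P : Subgroup G) ≠ ⊥ := by
  intro hP
  apply hPQ
  have := P.3 Q.2 (by rw [hP]; exact bot_le)
  exact (Sylow.ext this).symm

/-- Two involutions of different Sylow 2-subgroups are conjugate by an involution of the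
subgroup they generate. -/
theorem aic_exists_swap (h : AbInvCent G) {P Q : Sylow 2 G} (hPQ : P ≠ Q) {t s : G}
    (ht : orderOf t = 2) (hs : orderOf s = 2) (htP : t ∈ P) (hsQ : s ∈ Q) :
    ∃ w : G, orderOf w = 2 ∧ w * t * w⁻¹ = s ∧ w ∈ closure ({t, s} : Set G) := by
  have hodd := aic_odd_mul h hPQ ht hs htP hsQ
  obtain ⟨j, hj⟩ := hodd
  have hti := aic_inv_inv ht
  have hsi := aic_inv_inv hs
  set x := t * s with hx
  have hxn : x ^ (2 * j + 1) = 1 := by rw [← hj]; exact pow_orderOf_eq_one x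
  have htx : t * x * t⁻¹ = x⁻¹ := by
    rw [hx, mul_inv_rev, hti, hsi, ← mul_assoc, aic_inv_sq ht, one_mul]
  set r := x ^ (j + 1) with hr
  have htr : t * r * t⁻¹ = r⁻¹ := by
    rw [hr, ← conj_pow, htx, inv_pow]
  have htr' : t * r * t = r⁻¹ := by rw [hti] at htr; exact htr
  have hrr : r * r = x := by
    rw [hr, ← pow_add]
    have : j + 1 + (j + 1) = (2 * j + 1) + 1 := by ring
    rw [this, pow_succ, hxn, one_mul]
  have hww : (t * r) * (t * r) = 1 := by
    have : (t * r) * (t * r) = (t * r * t) * r := by group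
    rw [this, htr', inv_mul_cancel]
  have hw1 : t * r ≠ 1 := by
    intro h1
    have hrt : r = t := by
      have : r = t⁻¹ := by
        have := congrArg (t⁻¹ * ·) h1; simpa using this
      rw [this, hti]
    have hrn : r ^ (2 * j + 1) = 1 := by
      rw [hr, ← pow_mul, mul_comm, pow_mul, hxn, one_pow]
    rw [hrt] at hrn
    have := orderOf_dvd_of_pow_eq_one hrn
    rw [ht] at this
    omega
  have hw2 : orderOf (t * r) = 2 := aic_orderOf_two hww hw1
  refine ⟨t * r, hw2, ?_, ?_⟩
  · rw [aic_inv_inv hw2]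
    have : t * r * t * (t * r) = t * (r * r) := by
      have h3 : t * r * t * (t * r) = t * r * (t * t) * r := by group
      rw [h3, aic_inv_sq ht]; group
    rw [this, hrr, hx, ← mul_assoc, aic_inv_sq ht, one_mul]
  · have htc : t ∈ closure ({t, s} : Set G) := subset_closure (by simp)
    have hsc : s ∈ closure ({t, s} : Set G) := subset_closure (by simp)
    exact mul_mem htc (pow_mem (mul_mem htc hsc) _)

theorem aic_swap_smul (h : AbInvCent G) {P Q : Sylow 2 G} {t w : G} (ht : orderOf t = 2)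
    (htP : t ∈ P) (hw : orderOf w = 2) (hs : w * t * w⁻¹ ∈ Q) : w • P = Q ∧ w • Q = P := by
  have h1 := aic_smul_eq_of_conj h ht htP hs
  refine ⟨h1, ?_⟩
  rw [← h1, ← mul_smul, aic_inv_sq hw, one_smul]

/-- The swapping involution is unique. -/
theorem aic_swap_unique (h : AbInvCent G) {P Q : Sylow 2 G} (hPQ : P ≠ Q) {t s w w' : G}
    (ht : orderOf t = 2) (htP : t ∈ P) (hsQ : s ∈ Q)
    (hw : orderOf w = 2) (hw' : orderOf w' = 2) (h1 : w * t * w⁻¹ = s)
    (h2 : w' * t * w'⁻¹ = s) : w = w' := by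
  have hs : orderOf s = 2 := by rw [← h1, aic_orderOf_conj]; exact ht
  obtain ⟨w0, hw0, hw0c, hw0m⟩ := aic_exists_swap h hPQ ht hs htP hsQ
  have key : ∀ v : G, orderOf v = 2 → v * t * v⁻¹ = s → v = w0 := by
    intro v hv hvc
    have hvi := aic_inv_inv hv
    have hw0i := aic_inv_inv hw0
    set y := v * w0 with hy
    -- w0 s w0⁻¹ = t and v s v⁻¹ = t
    have hw0s : w0 * s * w0⁻¹ = t := by
      rw [← hw0c, hw0i]
      have : w0 * (w0 * t * w0) * w0 = (w0 * w0) * t * (w0 * w0) := by group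
      rw [this, aic_inv_sq hw0]; simp
    have hvs : v * s * v⁻¹ = t := by
      rw [← hvc, hvi]
      have : v * (v * t * v) * v = (v * v) * t * (v * v) := by group
      rw [this, aic_inv_sq hv]; simp
    have hyt : y * t = t * y := by
      have : y * t * y⁻¹ = t := by
        rw [hy, mul_inv_rev]
        have : v * w0 * t * (w0⁻¹ * v⁻¹) = v * (w0 * t * w0⁻¹) * v⁻¹ := by group
        rw [this, hw0c, hvs]
      have h3 := congrArg (· * y) this; simpa using h3
    have hys : y * s = s * y := by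
      have : y * s * y⁻¹ = s := by
        rw [hy, mul_inv_rev]
        have : v * w0 * s * (w0⁻¹ * v⁻¹) = v * (w0 * s * w0⁻¹) * v⁻¹ := by group
        rw [this, hw0s, hvc]
      have h3 := congrArg (· * y) this; simpa using h3
    have hyw0 : y * w0 = w0 * y := by
      have hc : w0 ∈ centralizer ({y} : Set G) := by
        have hle : closure ({t, s} : Set G) ≤ centralizer ({y} : Set G) := by
          rw [closure_le]
          intro z hz
          rcases hz with rfl | hz
          · show z ∈ centralizer ({y} : Set G)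
            rw [mem_centralizer_singleton_iff]; exact hyt.symm
          · rw [Set.mem_singleton_iff] at hz; subst hz
            show z ∈ centralizer ({y} : Set G)
            rw [mem_centralizer_singleton_iff]; exact hys.symm
        exact hle hw0m
      rw [mem_centralizer_singleton_iff] at hc
      exact hc.symm
    have hvy : v = y * w0 := by rw [hy, mul_assoc, aic_inv_sq hw0, mul_one]
    have hyy : y * y = 1 := by
      have h4 : v * v = 1 := aic_inv_sq hv
      rw [hvy] at h4
      have : y * w0 * (y * w0) = y * y * (w0 * w0) := by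
        have h5 : y * w0 * (y * w0) = y * (w0 * y) * w0 := by group
        rw [h5, ← hyw0]; group
      rw [this, aic_inv_sq hw0, mul_one] at h4
      exact h4
    by_cases hy1 : y = 1
    · rw [hvy, hy1, one_mul]
    · exfalso
      have hy2 : orderOf y = 2 := aic_orderOf_two hyy hy1
      have hyP : y ∈ P := aic_inv_mem_of_fix hy2
        (aic_smul_eq_of_centralizes (aic_mem_centralizer_of_comm h ht htP hyt))
      have hyQ : y ∈ Q := aic_inv_mem_of_fix hy2
        (aic_smul_eq_of_centralizes (aic_mem_centralizer_of_comm h hs hsQ hys))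
      exact hPQ (aic_sylow_eq_of_inv h hy2 hyP hyQ)
  rw [key w hw h1, key w' hw' h2]

/-- The two-point stabilizer is transitive on the involutions of `P`. -/
theorem aic_exists_fix_conj (h : AbInvCent G) {P Q : Sylow 2 G} (hPQ : P ≠ Q) {t t' : G}
    (ht : orderOf t = 2) (ht' : orderOf t' = 2) (htP : t ∈ P) (ht'P : t' ∈ P) :
    ∃ d : G, d • P = P ∧ d • Q = Q ∧ d * t * d⁻¹ = t' ∧ d ∈ invClosure G := by
  obtain ⟨s, hsQ, hs⟩ := aic_exists_inv_mem (aic_ne_bot_of_ne (Ne.symm hPQ))
  obtain ⟨w, hw, hwc, -⟩ := aic_exists_swap h hPQ ht hs htP hsQ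
  obtain ⟨w', hw', hwc', -⟩ := aic_exists_swap h hPQ ht' hs ht'P hsQ
  have hsw := aic_swap_smul h ht htP hw (by rw [hwc]; exact hsQ)
  have hsw' := aic_swap_smul h ht' ht'P hw' (by rw [hwc']; exact hsQ)
  have hw'i := aic_inv_inv hw'
  have hw's : w' * s * w'⁻¹ = t' := by
    rw [← hwc', hw'i]
    have : w' * (w' * t' * w') * w' = (w' * w') * t' * (w' * w') := by group
    rw [this, aic_inv_sq hw']; simp
  refine ⟨w' * w, ?_, ?_, ?_, ?_⟩
  · rw [mul_smul, hsw.1, hsw'.2]
  · rw [mul_smul, hsw.2, hsw'.1]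
  · rw [mul_inv_rev]
    have : w' * w * t * (w⁻¹ * w'⁻¹) = w' * (w * t * w⁻¹) * w'⁻¹ := by group
    rw [this, hwc, hw's]
  · exact mul_mem (subset_closure hw') (subset_closure hw)

/-- `N(P) = C(P) · (N(P) ∩ N(Q))`. -/
theorem aic_normalizer_factor (h : AbInvCent G) {P Q : Sylow 2 G} (hPQ : P ≠ Q) {g : G}
    (hg : g • P = P) :
    ∃ d : G, d • P = P ∧ d • Q = Q ∧ d ∈ invClosure G ∧
      d⁻¹ * g ∈ centralizer ((P : Subgroup G) : Set G) := by
  obtain ⟨t, htP, ht⟩ := aic_exists_inv_mem (aic_ne_bot_of_ne hPQ)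
  have ht'P : g * t * g⁻¹ ∈ P := by
    have := aic_conj_mem_smul (g := g) htP; rw [hg] at this; exact this
  have ht' : orderOf (g * t * g⁻¹) = 2 := by rw [aic_orderOf_conj]; exact ht
  obtain ⟨d, hdP, hdQ, hdc, hdm⟩ := aic_exists_fix_conj h hPQ ht ht' htP ht'P
  refine ⟨d, hdP, hdQ, hdm, ?_⟩
  apply aic_mem_centralizer_of_comm h ht htP
  have : d⁻¹ * (g * t * g⁻¹) * d = t := by rw [← hdc]; group
  have h2 : d⁻¹ * g * t = d⁻¹ * (g * t * g⁻¹) * d * (d⁻¹ * g) := by group
  rw [h2, this]

/-- `C(P)` is abelian. -/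
theorem aic_centralizer_comm (h : AbInvCent G) {P : Sylow 2 G} (hP : (P : Subgroup G) ≠ ⊥)
    {x y : G} (hx : x ∈ centralizer ((P : Subgroup G) : Set G))
    (hy : y ∈ centralizer ((P : Subgroup G) : Set G)) : x * y = y * x := by
  obtain ⟨t, htP, ht⟩ := aic_exists_inv_mem hP
  rw [mem_centralizer_iff] at hx hy
  exact aic_comm_of_mem h ht (hx t htP).symm (hy t htP).symm

omit [Finite G] in
theorem aic_conj_mem_centralizer {P : Sylow 2 G} {g x : G}
    (hx : x ∈ centralizer ((P : Subgroup G) : Set G)) :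
    g * x * g⁻¹ ∈ centralizer (((g • P : Sylow 2 G) : Subgroup G) : Set G) := by
  rw [mem_centralizer_iff] at hx ⊢
  intro y hy
  have hy' : g⁻¹ * y * g ∈ P := aic_mem_smul.mp hy
  have := hx _ hy'
  have h1 : y * (g * x * g⁻¹) = g * ((g⁻¹ * y * g) * x) * g⁻¹ := by group
  have h2 : g * x * g⁻¹ * y = g * (x * (g⁻¹ * y * g)) * g⁻¹ := by group
  rw [h1, h2, this]

/-- The odd-order elements of `C(P)` (a subgroup, since `C(P)` is abelian). -/
def oddCent (P : Sylow 2 G) : Subgroup G :=
  Subgroup.closure {x : G | x ∈ centralizer ((P : Subgroup G) : Set G) ∧ Odd (orderOf x)}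

theorem aic_mem_oddCent (h : AbInvCent G) {P : Sylow 2 G} (hP : (P : Subgroup G) ≠ ⊥) {x : G} :
    x ∈ oddCent P ↔ x ∈ centralizer ((P : Subgroup G) : Set G) ∧ Odd (orderOf x) := by
  constructor
  · intro hx
    unfold oddCent at hx
    induction hx using Subgroup.closure_induction with
    | mem y hy => exact hy
    | one => exact ⟨one_mem _, by simp⟩
    | mul y z _ _ ihy ihz =>
      refine ⟨mul_mem ihy.1 ihz.1, ?_⟩
      have hc : Commute y z := aic_centralizer_comm h hP ihy.1 ihz.1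
      have hdvd := hc.orderOf_mul_dvd_lcm
      have hl : Odd (Nat.lcm (orderOf y) (orderOf z)) := by
        rw [← Nat.not_even_iff_odd, even_iff_two_dvd]
        intro h2
        rcases (Nat.Prime.dvd_mul Nat.prime_two).mp
          (dvd_trans h2 (Nat.lcm_dvd_mul (orderOf y) (orderOf z))) with h3 | h3
        · exact (Nat.not_even_iff_odd.mpr ihy.2) (even_iff_two_dvd.mpr h3)
        · exact (Nat.not_even_iff_odd.mpr ihz.2) (even_iff_two_dvd.mpr h3)
      exact Odd.of_dvd_nat hl hdvd
    | inv y _ ihy => exact ⟨inv_mem ihy.1, by rw [orderOf_inv]; exact ihy.2⟩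
  · intro hx
    exact subset_closure hx

theorem aic_oddCent_le (h : AbInvCent G) {P : Sylow 2 G} (hP : (P : Subgroup G) ≠ ⊥) :
    oddCent P ≤ centralizer ((P : Subgroup G) : Set G) :=
  fun _ hx => ((aic_mem_oddCent h hP).mp hx).1

theorem aic_smul_ne_bot {P : Sylow 2 G} (hP : (P : Subgroup G) ≠ ⊥) (g : G) :
    ((g • P : Sylow 2 G) : Subgroup G) ≠ ⊥ := by
  obtain ⟨t, htP, ht⟩ := aic_exists_inv_mem hP
  intro hb
  have := aic_conj_mem_smul (g := g) htP
  have h2 : g * t * g⁻¹ ∈ ((g • P : Sylow 2 G) : Subgroup G) := this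
  rw [hb, mem_bot] at h2
  have h3 : orderOf (g * t * g⁻¹) = 2 := by rw [aic_orderOf_conj]; exact ht
  rw [h2] at h3; simp at h3

theorem aic_conj_mem_oddCent (h : AbInvCent G) {P : Sylow 2 G} (hP : (P : Subgroup G) ≠ ⊥)
    {g x : G} (hx : x ∈ oddCent P) : g * x * g⁻¹ ∈ oddCent (g • P) := by
  rw [aic_mem_oddCent h (aic_smul_ne_bot hP g)]
  rw [aic_mem_oddCent h hP] at hx
  exact ⟨aic_conj_mem_centralizer hx.1, by rw [aic_orderOf_conj]; exact hx.2⟩

/-- an element of `C(P)` fixing another Sylow 2-subgroup lies in `oddCent P` -/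
theorem aic_mem_oddCent_of_fix (h : AbInvCent G) {P Q : Sylow 2 G} (hPQ : P ≠ Q) {x : G}
    (hx : x ∈ centralizer ((P : Subgroup G) : Set G)) (hQ : x • Q = Q) : x ∈ oddCent P := by
  rw [aic_mem_oddCent h (aic_ne_bot_of_ne hPQ)]
  exact ⟨hx, aic_odd_of_fix_two h hPQ (aic_smul_eq_of_centralizes hx) hQ⟩

end Cfsg.Agent.Helper3
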