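import Mathlib

set_option autoImplicit false

/-!
Definitions for S2202 (finite groups in which every involution has an abelian centralizer).
`AbInvCent G` is the hypothesis, `AicConcl G` the structure proved by induction on the order:
Sylow 2-subgroups elementary abelian, odd-order elements centralizing an involution are central,
`G` is the direct product of the subgroup generated by its involutions and its center, and
there are `|P| + 1` Sylow 2-subgroups.
-/

namespace Cfsg.Agent.Helper3

/-- Every involution has an abelian centralizer. -/
def AbInvCent (G : Type*) [Group G] : Prop :=
  ∀ t : G, orderOf t = 2 → IsMulCommutative ↥(Subgroup.centralizer ({t} : Set G))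

/-- The subgroup generated by the involutions. -/
def invClosure (G : Type*) [Group G] : Subgroup G :=
  Subgroup.closure {t : G | orderOf t = 2}

/-- The structure statement proved by induction for groups with abelian involution centralizers
and a non-cyclic, non-normal Sylow 2-subgroup. -/
def AicConcl (G : Type*) [Group G] : Prop :=
  (∀ P : Sylow 2 G, ∀ x ∈ P, x ^ 2 = 1) ∧
  (∀ t x : G, orderOf t = 2 → Commute x t → Odd (orderOf x) → x ∈ Subgroup.center G) ∧
  invClosure G ⊓ Subgroup.center G = ⊥ ∧
  invClosure G ⊔ Subgroup.center G = ⊤ ∧
  (∀ P : Sylow 2 G, Nat.card (Sylow 2 G) = Nat.card P + 1)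

end Cfsg.Agent.Helper3
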