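import Cfsg.Agent.Helper3.AicTI
import Cfsg.Agent.Helper55.AicP8
import Cfsg.Agent.Helper55.AicP9a
import Cfsg.Agent.Helper4.AicP11

set_option autoImplicit false

/-!
S2202: the induction on the order.  The semiregular (Zassenhaus) case is taken as a hypothesis
`hsr`, to be discharged by `Cfsg.Agent.Helper88.aic_semiregular_case`.
-/

namespace Cfsg.Agent.Helper3

open Subgroup

universe u

theorem aic_not_normal_all {G : Type*} [Group G] [Finite G] (P : Sylow 2 G)
    (hnn : ¬ (P : Subgroup G).Normal) (Q : Sylow 2 G) : ¬ (Q : Subgroup G).Normal := by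
  have : Fact (Nat.Prime 2) := ⟨Nat.prime_two⟩
  intro hQ
  apply hnn
  obtain ⟨g, hg⟩ := MulAction.exists_smul_eq G Q P
  rw [Sylow.smul_eq_of_normal] at hg
  rw [← hg]; exact hQ

theorem aic_main_of
    (hsr : ∀ (G : Type u) [Group G] [Finite G], AbInvCent G → ∀ P : Sylow 2 G,
      ¬ IsCyclic (P : Subgroup G) → ¬ (P : Subgroup G).Normal →
      (∀ Q R : Sylow 2 G, Q ≠ R → ∀ x : G, x ∈ centralizer ((Q : Subgroup G) : Set G) →
        x • R = R → x = 1) →
      (∀ Q R T : Sylow 2 G, Q ≠ R → Q ≠ T → R ≠ T → ∀ d : G, d • Q = Q → d • R = R →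
        d • T = T → d = 1) → AicConcl G) :
    ∀ (n : ℕ) (G : Type u) [Group G] [Finite G], Nat.card G = n → AbInvCent G →
    ∀ P : Sylow 2 G, ¬ IsCyclic (P : Subgroup G) → ¬ (P : Subgroup G).Normal → AicConcl G := by
  intro n
  induction n using Nat.strong_induction_on with
  | _ n ih =>
    intro G _ _ hn h P hnc hnn
    have IH : ∀ (X : Type u) [Group X] [Finite X], Nat.card X < Nat.card G → AbInvCent X →
        ∀ Q : Sylow 2 X, ¬ IsCyclic (Q : Subgroup X) → ¬ (Q : Subgroup X).Normal → AicConcl X := by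
      intro X _ _ hlt hX Q hQ1 hQ2
      exact ih (Nat.card X) (hn ▸ hlt) X rfl hX Q hQ1 hQ2
    by_cases hgen : Subgroup.normalClosure ((P : Subgroup G) : Set G) = ⊤
    · have hZ := Cfsg.Agent.Helper55.aic_center_eq_bot h P hnc hnn hgen IH
      have hmax : ∀ Q : Sylow 2 G, normalizer ((oddCent Q : Subgroup G) : Set G) = ⊤ ∨
          normalizer ((oddCent Q : Subgroup G) : Set G) = normalizer ((Q : Subgroup G) : Set G) :=
        fun Q => Cfsg.Agent.Helper55.aic_normalizer_oddCent h Q (aic_not_cyclic_all P hnc Q)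
          (aic_not_normal_all P hnn Q) IH
      have hd := aic_semiregular_of_center_bot h P hnc hZ hgen hmax IH
      have h3 := aic_three_point h hd
      exact hsr G h P hnc hnn hd h3
    · exact Cfsg.Agent.Helper4.aic_concl_of_normalClosure_ne_top h P hnc hnn hgen IH

end Cfsg.Agent.Helper3
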