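import Cfsg.Agent.Helper3.AicTwoPt
import Cfsg.Agent.Helper33.AicSub

set_option autoImplicit false

/-!
S2202: in a minimal situation with trivial center, generated by the conjugates of a Sylow
2-subgroup, and with `N(oddCent Q)` either everything or `N(Q)`, the groups `oddCent Q` form a
TI family and no non-identity element of `C(Q)` normalizes another Sylow 2-subgroup.
-/

namespace Cfsg.Agent.Helper3

open Subgroup

universe u

variable {G : Type u} [Group G] [Finite G]

theorem aic_not_cyclic_all (P : Sylow 2 G) (hnc : ¬ IsCyclic (P : Subgroup G)) (Q : Sylow 2 G) :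
    ¬ IsCyclic (Q : Subgroup G) := by
  have : Fact (Nat.Prime 2) := ⟨Nat.prime_two⟩
  obtain ⟨g, rfl⟩ := MulAction.exists_smul_eq G P Q
  intro hc
  apply hnc
  rw [Sylow.coe_subgroup_smul] at hc
  exact (MulEquiv.isCyclic (Subgroup.equivSMul (MulAut.conj g) (P : Subgroup G))).mpr hc

omit [Finite G] in
theorem aic_ne_bot_of_not_cyclic {Q : Sylow 2 G} (hnc : ¬ IsCyclic (Q : Subgroup G)) :
    (Q : Subgroup G) ≠ ⊥ := by
  intro hb
  apply hnc
  rw [hb]
  infer_instance

/-- If `oddCent Q` is normal, then it is trivial (when the center is trivial and the Sylow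
2-subgroups generate). -/
theorem aic_oddCent_eq_bot_of_normal (h : AbInvCent G) (P : Sylow 2 G)
    (hP : (P : Subgroup G) ≠ ⊥) (hZ : Subgroup.center G = ⊥)
    (hgen : Subgroup.normalClosure ((P : Subgroup G) : Set G) = ⊤) (Q : Sylow 2 G)
    (hN : normalizer ((oddCent Q : Subgroup G) : Set G) = ⊤) : oddCent Q = ⊥ := by
  have : Fact (Nat.Prime 2) := ⟨Nat.prime_two⟩
  have hQ : (Q : Subgroup G) ≠ ⊥ := by
    obtain ⟨g, rfl⟩ := MulAction.exists_smul_eq G P Q
    exact aic_smul_ne_bot hP g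
  rw [eq_bot_iff]
  intro a ha
  rw [mem_bot]
  have hall : ∀ g : G, a ∈ oddCent (g • Q) := by
    intro g
    have hg : g⁻¹ ∈ normalizer ((oddCent Q : Subgroup G) : Set G) := by rw [hN]; exact mem_top _
    have h1 := (mem_normalizer_iff.mp hg a).mp ha
    have h2 := aic_conj_mem_oddCent h hQ (g := g) h1
    have h3 : g * (g⁻¹ * a * g⁻¹⁻¹) * g⁻¹ = a := by group
    rw [h3] at h2; exact h2
  have hcent : ∀ (R : Sylow 2 G), ∀ y ∈ R, y * a = a * y := by
    intro R y hy
    obtain ⟨g, rfl⟩ := MulAction.exists_smul_eq G Q R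
    have := aic_oddCent_le h (aic_smul_ne_bot hQ g) (hall g)
    rw [mem_centralizer_iff] at this
    exact this y hy
  have hle : Subgroup.normalClosure ((P : Subgroup G) : Set G) ≤ centralizer ({a} : Set G) := by
    unfold Subgroup.normalClosure
    rw [Subgroup.closure_le]
    intro y hy
    rw [Group.mem_conjugatesOfSet_iff] at hy
    obtain ⟨x, hx, hxy⟩ := hy
    rw [isConj_iff] at hxy
    obtain ⟨c, rfl⟩ := hxy
    rw [SetLike.mem_coe, mem_centralizer_singleton_iff]
    exact hcent (c • P) _ (aic_conj_mem_smul hx)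
  rw [hgen] at hle
  have hc : a ∈ center G := by
    rw [Subgroup.mem_center_iff]
    intro g
    have := hle (mem_top g)
    rw [mem_centralizer_singleton_iff] at this
    exact this
  rw [hZ] at hc; exact mem_bot.mp hc

/-- If `a` lies in `oddCent Q` and `oddCent R` and is not central then `oddCent Q ≤ oddCent R`. -/
theorem aic_oddCent_le_of_common (h : AbInvCent G)
    (IH : ∀ (X : Type u) [Group X] [Finite X], Nat.card X < Nat.card G → AbInvCent X →
      ∀ Q : Sylow 2 X, ¬ IsCyclic (Q : Subgroup X) → ¬ (Q : Subgroup X).Normal → AicConcl X)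
    {Q R : Sylow 2 G} (hQR : Q ≠ R) (hncQ : ¬ IsCyclic (Q : Subgroup G)) {a : G}
    (hK : centralizer ({a} : Set G) ≠ ⊤) (haQ : a ∈ oddCent Q) (haR : a ∈ oddCent R) :
    oddCent Q ≤ oddCent R := by
  have hQb := aic_ne_bot_of_ne hQR
  have hRb := aic_ne_bot_of_ne (Ne.symm hQR)
  have haQ' := (aic_mem_oddCent h hQb).mp haQ
  have haR' := (aic_mem_oddCent h hRb).mp haR
  have hQK : (Q : Subgroup G) ≤ centralizer ({a} : Set G) := by
    intro y hy
    rw [mem_centralizer_singleton_iff]
    have := haQ'.1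
    rw [mem_centralizer_iff] at this
    exact this y hy
  have hRK : (R : Subgroup G) ≤ centralizer ({a} : Set G) := by
    intro y hy
    rw [mem_centralizer_singleton_iff]
    have := haR'.1
    rw [mem_centralizer_iff] at this
    exact this y hy
  obtain ⟨-, hcl, -, -⟩ := Cfsg.Agent.Helper33.aicConcl_of_subgroup h _ hK Q R hQR hncQ hQK hRK IH
  obtain ⟨t, htQ, ht⟩ := aic_exists_inv_mem hQb
  intro x hx
  have hx' := (aic_mem_oddCent h hQb).mp hx
  rw [aic_mem_oddCent h hRb]
  refine ⟨?_, hx'.2⟩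
  have hxK : x ∈ centralizer ({a} : Set G) := by
    rw [mem_centralizer_singleton_iff]
    exact aic_centralizer_comm h hQb hx'.1 haQ'.1
  have hxt : Commute x t := by
    have := hx'.1
    rw [mem_centralizer_iff] at this
    exact (this t htQ).symm
  have hall := hcl t x (hQK htQ) hxK ht hxt hx'.2
  rw [mem_centralizer_iff]
  intro y hy
  exact ((hall y (hRK hy)).eq).symm

/-- The groups `oddCent Q` form a TI family. -/
theorem aic_oddCent_ti (h : AbInvCent G) (P : Sylow 2 G) (hnc : ¬ IsCyclic (P : Subgroup G))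
    (hZ : Subgroup.center G = ⊥)
    (hgen : Subgroup.normalClosure ((P : Subgroup G) : Set G) = ⊤)
    (hmax : ∀ Q : Sylow 2 G, normalizer ((oddCent Q : Subgroup G) : Set G) = ⊤ ∨
      normalizer ((oddCent Q : Subgroup G) : Set G) = normalizer ((Q : Subgroup G) : Set G))
    (IH : ∀ (X : Type u) [Group X] [Finite X], Nat.card X < Nat.card G → AbInvCent X →
      ∀ Q : Sylow 2 X, ¬ IsCyclic (Q : Subgroup X) → ¬ (Q : Subgroup X).Normal → AicConcl X)
    {Q R : Sylow 2 G} (hQR : Q ≠ R) {a : G} (haQ : a ∈ oddCent Q) (haR : a ∈ oddCent R) :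
    a = 1 := by
  by_contra ha1
  have hRb := aic_ne_bot_of_ne (Ne.symm hQR)
  have hPb := aic_ne_bot_of_not_cyclic hnc
  have hncQ := aic_not_cyclic_all P hnc Q
  have hncR := aic_not_cyclic_all P hnc R
  have hK : centralizer ({a} : Set G) ≠ ⊤ := by
    intro htop
    apply ha1
    have hc : a ∈ center G := by
      rw [Subgroup.mem_center_iff]
      intro g
      have : g ∈ centralizer ({a} : Set G) := by rw [htop]; exact mem_top g
      rw [mem_centralizer_singleton_iff] at this
      exact this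
    rw [hZ] at hc; exact mem_bot.mp hc
  have heq : oddCent Q = oddCent R :=
    le_antisymm (aic_oddCent_le_of_common h IH hQR hncQ hK haQ haR)
      (aic_oddCent_le_of_common h IH (Ne.symm hQR) hncR hK haR haQ)
  have hneQ : oddCent Q ≠ ⊥ := by
    intro hb
    rw [hb, mem_bot] at haQ
    exact ha1 haQ
  have hneR : oddCent R ≠ ⊥ := by rw [← heq]; exact hneQ
  have hNQ := (hmax Q).resolve_left
    (fun hN => hneQ (aic_oddCent_eq_bot_of_normal h P hPb hZ hgen Q hN))
  have hNR := (hmax R).resolve_left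
    (fun hN => hneR (aic_oddCent_eq_bot_of_normal h P hPb hZ hgen R hN))
  have hNQR : normalizer ((Q : Subgroup G) : Set G) = normalizer ((R : Subgroup G) : Set G) := by
    rw [← hNQ, ← hNR, heq]
  obtain ⟨r, hrR, hr⟩ := aic_exists_inv_mem hRb
  have hrN : r ∈ normalizer ((Q : Subgroup G) : Set G) := by
    rw [hNQR]; exact le_normalizer hrR
  have hrQ : r ∈ Q := aic_inv_mem_of_fix hr (Sylow.smul_eq_iff_mem_normalizer.mpr hrN)
  exact hQR (aic_sylow_eq_of_inv h hr hrQ hrR)

/-- No non-identity element of `C(Q)` normalizes another Sylow 2-subgroup. -/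
theorem aic_semiregular_of_center_bot (h : AbInvCent G) (P : Sylow 2 G)
    (hnc : ¬ IsCyclic (P : Subgroup G))
    (hZ : Subgroup.center G = ⊥)
    (hgen : Subgroup.normalClosure ((P : Subgroup G) : Set G) = ⊤)
    (hmax : ∀ Q : Sylow 2 G, normalizer ((oddCent Q : Subgroup G) : Set G) = ⊤ ∨
      normalizer ((oddCent Q : Subgroup G) : Set G) = normalizer ((Q : Subgroup G) : Set G))
    (IH : ∀ (X : Type u) [Group X] [Finite X], Nat.card X < Nat.card G → AbInvCent X →
      ∀ Q : Sylow 2 X, ¬ IsCyclic (Q : Subgroup X) → ¬ (Q : Subgroup X).Normal → AicConcl X) :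
    ∀ Q R : Sylow 2 G, Q ≠ R → ∀ x : G, x ∈ centralizer ((Q : Subgroup G) : Set G) →
      x • R = R → x = 1 := by
  intro Q R hQR b hbQ hbR
  have hTI : ∀ {Q R : Sylow 2 G}, Q ≠ R → ∀ {a : G}, a ∈ oddCent Q → a ∈ oddCent R → a = 1 :=
    fun hQR _ haQ haR => aic_oddCent_ti h P hnc hZ hgen hmax IH hQR haQ haR
  have hQb := aic_ne_bot_of_ne hQR
  have hRb := aic_ne_bot_of_ne (Ne.symm hQR)
  have hboQ : b ∈ oddCent Q := aic_mem_oddCent_of_fix h hQR hbQ hbR
  have hbQfix : b • Q = Q := aic_smul_eq_of_centralizes hbQ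
  obtain ⟨w, hw, hwQ, hwR⟩ := aic_exists_swap_inv h hQR
  have hwi := aic_inv_inv hw
  have hww := aic_inv_sq hw
  have hb'R0 : w * b * w⁻¹ ∈ oddCent R := by
    have := aic_conj_mem_oddCent h hQb (g := w) hboQ
    rw [hwQ] at this; exact this
  have hb'Qfix0 : (w * b * w⁻¹) • Q = Q := by
    rw [mul_smul, mul_smul, hwi, hwQ, hbR, hwR]
  obtain ⟨b', hb'⟩ : ∃ b', b' = w * b * w⁻¹ := ⟨_, rfl⟩
  have hb'R : b' ∈ oddCent R := by rw [hb']; exact hb'R0
  have hb'Qfix : b' • Q = Q := by rw [hb']; exact hb'Qfix0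
  have hcomm : b * b' = b' * b := by
    have hc1 : b * b' * b⁻¹ * b'⁻¹ ∈ oddCent Q := by
      have h1 : b' * b⁻¹ * b'⁻¹ ∈ oddCent Q := by
        have := aic_conj_mem_oddCent h hQb (g := b') (inv_mem hboQ)
        rw [hb'Qfix] at this; exact this
      have := mul_mem hboQ h1
      have e : b * (b' * b⁻¹ * b'⁻¹) = b * b' * b⁻¹ * b'⁻¹ := by group
      rw [e] at this; exact this
    have hc2 : b * b' * b⁻¹ * b'⁻¹ ∈ oddCent R := by
      have h1 : b * b' * b⁻¹ ∈ oddCent R := by
        have := aic_conj_mem_oddCent h hRb (g := b) hb'R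
        rw [hbR] at this; exact this
      exact mul_mem h1 (inv_mem hb'R)
    have h1 := hTI hQR hc1 hc2
    have e2 : b * b' = (b * b' * b⁻¹ * b'⁻¹) * (b' * b) := by group
    rw [e2, h1, one_mul]
  have hzw : (b * b') * w = w * (b * b') := by
    have e1 : (b * b') * w = b * w * b := by rw [hb']; group
    have e2 : w * (b * b') = (w * w) * b * w⁻¹ * b := by rw [hcomm, hb']; group
    rw [e1, e2, hww, hwi, one_mul]
  obtain ⟨T, hT⟩ := (aic_isPGroup_zpowers_of_two hw).exists_le_sylow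
  have hwT : w ∈ T := hT (mem_zpowers w)
  have hTQ : T ≠ Q := by
    intro hTQ
    rw [hTQ] at hwT
    apply hQR
    rw [← hwQ]
    exact (Sylow.smul_eq_iff_mem_normalizer.mpr (le_normalizer hwT)).symm
  have hTb := aic_ne_bot_of_ne hTQ
  have hzT : b * b' ∈ centralizer ((T : Subgroup G) : Set G) :=
    aic_mem_centralizer_of_comm h hw hwT hzw
  have hzQ : (b * b') • Q = Q := by rw [mul_smul, hb'Qfix, hbQfix]
  have hzoT : b * b' ∈ oddCent T := aic_mem_oddCent_of_fix h hTQ hzT hzQ
  by_contra hb1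
  have hz1 : b * b' ≠ 1 := by
    intro hz
    have e : b' = b⁻¹ := (inv_eq_of_mul_eq_one_right hz).symm
    have h1 : b' = 1 := hTI hQR (by rw [e]; exact inv_mem hboQ) hb'R
    rw [h1, mul_one] at hz
    exact hb1 hz
  have hbT : b • T = T := by
    by_contra hne
    apply hz1
    have h1 := aic_conj_mem_oddCent h hTb (g := b) hzoT
    have e : b * (b * b') * b⁻¹ = b * b' := by
      have e0 : b * (b * b') * b⁻¹ = b * (b' * b) * b⁻¹ := by rw [hcomm]
      rw [e0]; group
    rw [e] at h1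
    exact hTI (Ne.symm hne) hzoT h1
  have hbwT : b * w * b⁻¹ ∈ T := by
    have := aic_conj_mem_smul (g := b) hwT
    rw [hbT] at this; exact this
  have huT : w⁻¹ * (b * w * b⁻¹) ∈ T := mul_mem (inv_mem hwT) hbwT
  have huQ : (w⁻¹ * (b * w * b⁻¹)) • Q = Q := by
    have hbiQ : b⁻¹ • Q = Q := by rw [inv_smul_eq_iff]; exact hbQfix.symm
    rw [mul_smul, mul_smul, mul_smul, hbiQ, hwQ, hbR, hwi, hwR]
  have huQmem : w⁻¹ * (b * w * b⁻¹) ∈ Q := by
    apply aic_mem_of_normalizes _ huQ
    exact T.2.to_le (by rw [zpowers_le]; exact huT)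
  have hu1 : w⁻¹ * (b * w * b⁻¹) = 1 := by
    by_contra hu
    exact hTQ (aic_sylow_eq_of_mem h hu huT huQmem)
  have hb'b : b' = b := by
    have e1 : w = b * w * b⁻¹ := inv_mul_eq_one.mp hu1
    have e2 : b * w = w * b := mul_inv_eq_iff_eq_mul.mp e1.symm
    rw [hb', mul_inv_eq_iff_eq_mul]; exact e2.symm
  rw [hb'b] at hb'R
  exact hb1 (hTI hQR hboQ hb'R)

end Cfsg.Agent.Helper3
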