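import Cfsg.Agent.Helper3.AicBasic

set_option autoImplicit false

/-!
S2202, semiregular case: if no non-identity element of `C(Q)` normalizes another Sylow
2-subgroup, then two-point stabilizers are abelian, inverted by the swapping involutions,
self-centralizing, and three-point stabilizers are trivial.
-/

namespace Cfsg.Agent.Helper3

open Subgroup

variable {G : Type*} [Group G] [Finite G]

omit [Finite G] in
theorem aic_eq_one_of_sq_odd {d : G} (h2 : d * d = 1) (ho : Odd (orderOf d)) : d = 1 := by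
  have h3 : orderOf d ∣ 2 := orderOf_dvd_of_pow_eq_one (by rw [pow_two]; exact h2)
  have h4 : orderOf d = 1 := by
    rcases (Nat.dvd_prime Nat.prime_two).mp h3 with h5 | h5
    · exact h5
    · rw [h5] at ho; exact absurd ho (by decide)
  exact orderOf_eq_one_iff.mp h4

theorem aic_tp_eq_of_conj (h : AbInvCent G)
    (hd : ∀ Q R : Sylow 2 G, Q ≠ R → ∀ x : G, x ∈ centralizer ((Q : Subgroup G) : Set G) →
      x • R = R → x = 1)
    {P Q : Sylow 2 G} (hPQ : P ≠ Q) {t d d' : G} (ht : orderOf t = 2) (htP : t ∈ P)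
    (hdQ : d • Q = Q) (hd'Q : d' • Q = Q)
    (hc : d * t * d⁻¹ = d' * t * d'⁻¹) : d = d' := by
  have h1 : d⁻¹ * d' ∈ centralizer ((P : Subgroup G) : Set G) := by
    apply aic_mem_centralizer_of_comm h ht htP
    have : d⁻¹ * d' * t = d⁻¹ * (d' * t * d'⁻¹) * d' := by group
    rw [this, ← hc]; group
  have h2 : (d⁻¹ * d') • Q = Q := by
    rw [mul_smul, hd'Q, inv_smul_eq_iff]; exact hdQ.symm
  exact inv_mul_eq_one.mp (hd P Q hPQ _ h1 h2)

/-- A swapping involution inverts the two-point stabilizer. -/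
theorem aic_tp_inverts (h : AbInvCent G)
    (hd : ∀ Q R : Sylow 2 G, Q ≠ R → ∀ x : G, x ∈ centralizer ((Q : Subgroup G) : Set G) →
      x • R = R → x = 1)
    {P Q : Sylow 2 G} (hPQ : P ≠ Q) {w d : G} (hw : orderOf w = 2) (hwP : w • P = Q)
    (hdP : d • P = P) (hdQ : d • Q = Q) : w * d * w⁻¹ = d⁻¹ := by
  obtain ⟨t, htP, ht⟩ := aic_exists_inv_mem (aic_ne_bot_of_ne hPQ)
  have hwQ : w • Q = P := by rw [← hwP, ← mul_smul, aic_inv_sq hw, one_smul]
  set s := w * t * w⁻¹ with hs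
  have hsQ : s ∈ Q := by
    have := aic_conj_mem_smul (g := w) htP; rw [hwP] at this; exact this
  have hs2 : orderOf s = 2 := by rw [hs, aic_orderOf_conj]; exact ht
  set t' := d * t * d⁻¹ with ht'
  have ht'P : t' ∈ P := by
    have := aic_conj_mem_smul (g := d) htP; rw [hdP] at this; exact this
  have ht'2 : orderOf t' = 2 := by rw [ht', aic_orderOf_conj]; exact ht
  obtain ⟨w', hw', hw'c, -⟩ := aic_exists_swap h hPQ ht'2 hs2 ht'P hsQ
  have hsw' := aic_swap_smul h ht'2 ht'P hw' (by rw [hw'c]; exact hsQ)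
  have hw'i := aic_inv_inv hw'
  have hwi := aic_inv_inv hw
  have hw's : w' * s * w'⁻¹ = t' := by
    rw [← hw'c, hw'i]
    have : w' * (w' * t' * w') * w' = (w' * w') * t' * (w' * w') := by group
    rw [this, aic_inv_sq hw']; simp
  have hd' : d = w' * w := by
    apply aic_tp_eq_of_conj h hd hPQ ht htP hdQ
    · rw [mul_smul, hwQ, hsw'.1]
    · rw [mul_inv_rev]
      have : w' * w * t * (w⁻¹ * w'⁻¹) = w' * (w * t * w⁻¹) * w'⁻¹ := by group
      rw [this, ← hs, hw's]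
  rw [hd', mul_inv_rev, hwi, hw'i]
  have : w * (w' * w) * w = (w * w') * (w * w) := by group
  rw [this, aic_inv_sq hw, mul_one]

theorem aic_exists_swap_inv (h : AbInvCent G) {P Q : Sylow 2 G} (hPQ : P ≠ Q) :
    ∃ w : G, orderOf w = 2 ∧ w • P = Q ∧ w • Q = P := by
  obtain ⟨t, htP, ht⟩ := aic_exists_inv_mem (aic_ne_bot_of_ne hPQ)
  obtain ⟨s, hsQ, hs⟩ := aic_exists_inv_mem (aic_ne_bot_of_ne (Ne.symm hPQ))
  obtain ⟨w, hw, hwc, -⟩ := aic_exists_swap h hPQ ht hs htP hsQ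
  have := aic_swap_smul h ht htP hw (by rw [hwc]; exact hsQ)
  exact ⟨w, hw, this.1, this.2⟩

/-- The two-point stabilizer is abelian. -/
theorem aic_tp_comm (h : AbInvCent G)
    (hd : ∀ Q R : Sylow 2 G, Q ≠ R → ∀ x : G, x ∈ centralizer ((Q : Subgroup G) : Set G) →
      x • R = R → x = 1)
    {P Q : Sylow 2 G} (hPQ : P ≠ Q) {d d' : G} (hdP : d • P = P) (hdQ : d • Q = Q)
    (hd'P : d' • P = P) (hd'Q : d' • Q = Q) : d * d' = d' * d := by
  obtain ⟨w, hw, hwP, -⟩ := aic_exists_swap_inv h hPQ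
  have h1 := aic_tp_inverts h hd hPQ hw hwP hdP hdQ
  have h2 := aic_tp_inverts h hd hPQ hw hwP hd'P hd'Q
  have h3 := aic_tp_inverts h hd hPQ hw hwP (d := d * d')
    (by rw [mul_smul, hd'P, hdP]) (by rw [mul_smul, hd'Q, hdQ])
  have h4 : w * (d * d') * w⁻¹ = (w * d * w⁻¹) * (w * d' * w⁻¹) := by group
  rw [h4, h1, h2, mul_inv_rev] at h3
  have h5 := congrArg (·⁻¹) h3
  simp only [mul_inv_rev, inv_inv] at h5
  exact h5.symm

theorem aic_tp_cent_inv_trivial (h : AbInvCent G)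
    (hd : ∀ Q R : Sylow 2 G, Q ≠ R → ∀ x : G, x ∈ centralizer ((Q : Subgroup G) : Set G) →
      x • R = R → x = 1)
    {P Q : Sylow 2 G} (hPQ : P ≠ Q) {w d e : G} (hw : orderOf w = 2) (hwP : w • P = Q)
    (hd1 : d ≠ 1) (hdP : d • P = P) (hdQ : d • Q = Q) (hed : e * d = d * e)
    (hew : e * w = w * e) : e = 1 := by
  by_contra he1
  obtain ⟨R, hR⟩ := (aic_isPGroup_zpowers_of_two hw).exists_le_sylow
  have hwR : w ∈ R := hR (mem_zpowers w)
  have hwQ : w • Q = P := by rw [← hwP, ← mul_smul, aic_inv_sq hw, one_smul]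
  have hRP : R ≠ P := by
    intro hRP
    rw [hRP] at hwR
    have : w • P = P := Sylow.smul_eq_iff_mem_normalizer.mpr (le_normalizer hwR)
    exact hPQ (this.symm.trans hwP)
  have heC : e ∈ centralizer ((R : Subgroup G) : Set G) :=
    aic_mem_centralizer_of_comm h hw hwR hew
  by_cases hdR : d • R = R
  · -- then d commutes with w
    have hw2R : d * w * d⁻¹ ∈ R := by
      have := aic_conj_mem_smul (g := d) hwR; rw [hdR] at this; exact this
    have hw2P : (d * w * d⁻¹) • P = Q := by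
      rw [mul_smul, mul_smul, inv_smul_eq_iff.mpr hdP.symm, hwP, hdQ]
    set x := w⁻¹ * (d * w * d⁻¹) with hx
    have hxR : x ∈ R := mul_mem (inv_mem hwR) hw2R
    have hxP : x • P = P := by
      rw [hx, mul_smul, hw2P, aic_inv_inv hw, hwQ]
    have hxPm : x ∈ P := aic_mem_of_normalizes (R.2.to_le (zpowers_le.mpr hxR)) hxP
    have hx1 : x = 1 := by
      by_contra hx1
      exact hRP (aic_sylow_eq_of_mem h hx1 hxR hxPm)
    have hcomm : d * w * d⁻¹ = w := by
      have := inv_mul_eq_one.mp hx1; exact this.symm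
    have h1 := aic_tp_inverts h hd hPQ hw hwP hdP hdQ
    have h2 : w * d * w⁻¹ = d := by
      have h3 : w * d * w⁻¹ = (d * w * d⁻¹) * d * w⁻¹ := by rw [hcomm]
      rw [h3]; group
    rw [h2] at h1
    have h4 : d * d = 1 := by
      have := congrArg (d * ·) h1; simpa using this
    exact hd1 (aic_eq_one_of_sq_odd h4 (aic_odd_of_fix_two h hPQ hdP hdQ))
  · have h1 : d * e * d⁻¹ ∈ centralizer (((d • R : Sylow 2 G) : Subgroup G) : Set G) :=
      aic_conj_mem_centralizer heC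
    have h2 : d * e * d⁻¹ = e := by rw [← hed]; group
    rw [h2] at h1
    exact he1 (hd R (d • R) (Ne.symm hdR) e heC (aic_smul_eq_of_centralizes h1))

/-- A swapping involution inverts the centralizer of a non-identity element of the two-point
stabilizer. -/
theorem aic_tp_cent_inverted (h : AbInvCent G)
    (hd : ∀ Q R : Sylow 2 G, Q ≠ R → ∀ x : G, x ∈ centralizer ((Q : Subgroup G) : Set G) →
      x • R = R → x = 1)
    {P Q : Sylow 2 G} (hPQ : P ≠ Q) {w d : G} (hw : orderOf w = 2) (hwP : w • P = Q)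
    (hd1 : d ≠ 1) (hdP : d • P = P) (hdQ : d • Q = Q) :
    ∀ e : G, e * d = d * e → w * e * w⁻¹ = e⁻¹ := by
  have hinv := aic_tp_inverts h hd hPQ hw hwP hdP hdQ
  have hwi := aic_inv_inv hw
  have hww := aic_inv_sq hw
  -- w normalizes the centralizer of d
  have hnorm : ∀ e : G, e * d = d * e → (w * e * w⁻¹) * d = d * (w * e * w⁻¹) := by
    intro e he
    have h1 : (w * e * w⁻¹) * (w * d * w⁻¹) = (w * d * w⁻¹) * (w * e * w⁻¹) := by
      have : (w * e * w⁻¹) * (w * d * w⁻¹) = w * (e * d) * w⁻¹ := by group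
      rw [this, he]; group
    rw [hinv] at h1
    -- commuting with d⁻¹ implies commuting with d
    have h2 : d * (w * e * w⁻¹ * d⁻¹) * d = d * (d⁻¹ * (w * e * w⁻¹)) * d := by rw [h1]
    have h3 : d * (w * e * w⁻¹ * d⁻¹) * d = d * (w * e * w⁻¹) := by group
    have h4 : d * (d⁻¹ * (w * e * w⁻¹)) * d = (w * e * w⁻¹) * d := by group
    rw [h3, h4] at h2
    exact h2.symm
  let E : Subgroup G := centralizer ({d} : Set G)
  have hE : ∀ e : G, e ∈ E ↔ e * d = d * e := fun e => mem_centralizer_singleton_iff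
  let f : E → E := fun e => ⟨(e : G)⁻¹ * (w * (e : G) * w⁻¹),
    mul_mem (inv_mem e.2) ((hE _).mpr (hnorm _ ((hE _).mp e.2)))⟩
  have hf : Function.Injective f := by
    intro e e' hee
    have h1 : (e : G)⁻¹ * (w * (e : G) * w⁻¹) = (e' : G)⁻¹ * (w * (e' : G) * w⁻¹) :=
      congrArg Subtype.val hee
    set y := (e' : G) * (e : G)⁻¹ with hy
    have hyE : y ∈ E := mul_mem e'.2 (inv_mem e.2)
    have hyw : y * w = w * y := by
      have h2 : w * y * w⁻¹ = y := by
        have h3 : w * y * w⁻¹ = (w * (e' : G) * w⁻¹) * (w * (e : G) * w⁻¹)⁻¹ := by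
          rw [hy]; group
        have h4 : w * (e : G) * w⁻¹ = (e : G) * ((e' : G)⁻¹ * (w * (e' : G) * w⁻¹)) := by
          rw [← h1]; group
        rw [h3, h4, hy]; group
      have := congrArg (· * w) h2; simpa using this.symm
    have hy1 := aic_tp_cent_inv_trivial h hd hPQ hw hwP hd1 hdP hdQ ((hE _).mp hyE) hyw
    apply Subtype.ext
    have : (e' : G) = (e : G) := by
      have := mul_inv_eq_one.mp hy1; exact this
    exact this.symm
  have hsurj : Function.Surjective f := Finite.injective_iff_surjective.mp hf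
  intro e he
  obtain ⟨e0, he0⟩ := hsurj ⟨e, (hE _).mpr he⟩
  have h1 : (e0 : G)⁻¹ * (w * (e0 : G) * w⁻¹) = e := congrArg Subtype.val he0
  have hw2 : w⁻¹ * w⁻¹ = 1 := by rw [hwi]; exact hww
  rw [← h1]
  have hL : w * ((e0 : G)⁻¹ * (w * (e0 : G) * w⁻¹)) * w⁻¹
      = w * (e0 : G)⁻¹ * w * (e0 : G) * (w⁻¹ * w⁻¹) := by group
  have hR : ((e0 : G)⁻¹ * (w * (e0 : G) * w⁻¹))⁻¹ = w * (e0 : G)⁻¹ * w⁻¹ * (e0 : G) := by group
  rw [hL, hR, hw2, mul_one, hwi]

theorem aic_tp_cent_comm (h : AbInvCent G)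
    (hd : ∀ Q R : Sylow 2 G, Q ≠ R → ∀ x : G, x ∈ centralizer ((Q : Subgroup G) : Set G) →
      x • R = R → x = 1)
    {P Q : Sylow 2 G} (hPQ : P ≠ Q) {d : G}
    (hd1 : d ≠ 1) (hdP : d • P = P) (hdQ : d • Q = Q) {e e' : G} (he : e * d = d * e)
    (he' : e' * d = d * e') : e * e' = e' * e := by
  obtain ⟨w, hw, hwP, -⟩ := aic_exists_swap_inv h hPQ
  have key := aic_tp_cent_inverted h hd hPQ hw hwP hd1 hdP hdQ
  have h1 := key e he
  have h2 := key e' he'
  have h3 := key (e * e') (by rw [mul_assoc, he', ← mul_assoc, he, mul_assoc])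
  have h4 : w * (e * e') * w⁻¹ = (w * e * w⁻¹) * (w * e' * w⁻¹) := by group
  rw [h4, h1, h2, mul_inv_rev] at h3
  have h5 := congrArg (·⁻¹) h3
  simp only [mul_inv_rev, inv_inv] at h5
  exact h5.symm

/-- The centralizer of a non-identity element of a two-point stabilizer fixes the first
point. -/
theorem aic_tp_cent_fix (h : AbInvCent G)
    (hd : ∀ Q R : Sylow 2 G, Q ≠ R → ∀ x : G, x ∈ centralizer ((Q : Subgroup G) : Set G) →
      x • R = R → x = 1)
    {P Q : Sylow 2 G} (hPQ : P ≠ Q) {d e : G}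
    (hd1 : d ≠ 1) (hdP : d • P = P) (hdQ : d • Q = Q) (hed : e * d = d * e) : e • P = P := by
  by_contra hne
  have hPR : P ≠ e • P := fun hh => hne hh.symm
  -- d fixes e • P
  have hdR : d • (e • P) = e • P := by
    rw [← mul_smul, ← hed, mul_smul, hdP]
  obtain ⟨u, hu, huP, huR⟩ := aic_exists_swap_inv h hPR
  have hud := aic_tp_inverts h hd hPR hu huP hdP hdR
  set c := u * e with hc
  have hcP : c • P = P := by rw [hc, mul_smul, huR]
  have hcd : c * d * c⁻¹ = d⁻¹ := by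
    have : c * d * c⁻¹ = u * (e * d * e⁻¹) * u⁻¹ := by rw [hc]; group
    rw [this, hed]
    have : d * e * e⁻¹ = d := by group
    rw [this, hud]
  obtain ⟨δ, hδP, hδQ, -, hδc⟩ := aic_normalizer_factor h hPQ hcP
  have hδd := aic_tp_comm h hd hPQ hδP hδQ hdP hdQ
  set c0 := δ⁻¹ * c with hc0
  have hc0d : c0 * d * c0⁻¹ = d⁻¹ := by
    have : c0 * d * c0⁻¹ = δ⁻¹ * (c * d * c⁻¹) * δ := by rw [hc0]; group
    rw [this, hcd]
    have h2 : δ⁻¹ * d⁻¹ * δ = (δ⁻¹ * d * δ)⁻¹ := by group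
    have h3 : δ⁻¹ * d * δ = d := by
      have : δ⁻¹ * d * δ = δ⁻¹ * (d * δ) := by group
      rw [this, ← hδd]; group
    rw [h2, h3]
  have hx : d⁻¹ * d⁻¹ ∈ centralizer ((P : Subgroup G) : Set G) := by
    have h1 : d⁻¹ * d⁻¹ = c0 * (d * c0⁻¹ * d⁻¹) := by
      have : c0 * (d * c0⁻¹ * d⁻¹) = (c0 * d * c0⁻¹) * d⁻¹ := by group
      rw [this, hc0d]
    rw [h1]
    have h2 : d * c0⁻¹ * d⁻¹ ∈ centralizer (((d • P : Sylow 2 G) : Subgroup G) : Set G) :=
      aic_conj_mem_centralizer (inv_mem hδc)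
    rw [hdP] at h2
    exact mul_mem hδc h2
  have hxQ : (d⁻¹ * d⁻¹) • Q = Q := by
    have : d⁻¹ • Q = Q := inv_smul_eq_iff.mpr hdQ.symm
    rw [mul_smul, this, this]
  have hx1 := hd P Q hPQ _ hx hxQ
  have hdd : d * d = 1 := by
    have := congrArg (fun z => d * d * z) hx1
    simp only [mul_one] at this
    rw [← this]; group
  exact hd1 (aic_eq_one_of_sq_odd hdd (aic_odd_of_fix_two h hPQ hdP hdQ))

/-- Three-point stabilizers are trivial. -/
theorem aic_three_point (h : AbInvCent G)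
    (hd : ∀ Q R : Sylow 2 G, Q ≠ R → ∀ x : G, x ∈ centralizer ((Q : Subgroup G) : Set G) →
      x • R = R → x = 1) :
    ∀ Q R T : Sylow 2 G, Q ≠ R → Q ≠ T → R ≠ T → ∀ d : G, d • Q = Q → d • R = R →
      d • T = T → d = 1 := by
  intro Q R T hQR hQT hRT d hdQ hdR hdT
  by_contra hd1
  obtain ⟨w, hw, hwQ, hwR⟩ := aic_exists_swap_inv h hQR
  obtain ⟨v, hv, hvQ, hvT⟩ := aic_exists_swap_inv h hQT
  have h1 := aic_tp_inverts h hd hQR hw hwQ hdQ hdR
  have h2 := aic_tp_inverts h hd hQT hv hvQ hdQ hdT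
  -- e := w * v commutes with d
  have hed : (w * v) * d = d * (w * v) := by
    have h3 : (w * v) * d * (w * v)⁻¹ = w * (v * d * v⁻¹) * w⁻¹ := by group
    rw [h2] at h3
    have h4 : w * d⁻¹ * w⁻¹ = (w * d * w⁻¹)⁻¹ := by group
    rw [h4, h1, inv_inv] at h3
    have h6 : w * v * d = (w * v * d * (w * v)⁻¹) * (w * v) := by group
    rw [h6, h3]
  have hfix := aic_tp_cent_fix h hd hQR hd1 hdQ hdR hed
  rw [mul_smul, hvQ] at hfix
  -- w • T = Q, so T = w • Q = R
  have : T = R := by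
    have h5 : w • (w • T) = w • Q := by rw [hfix]
    rw [← mul_smul, aic_inv_sq hw, one_smul, hwQ] at h5
    exact h5
  exact hRT this.symm

end Cfsg.Agent.Helper3
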