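import Cfsg.Agent.Helper85.CXDefs

set_option autoImplicit false

namespace Cfsg.Agent.Helper3.CXCOMM

open Cfsg Cfsg.FusionSystem Cfsg.Agent.Helper85 Cfsg.Agent.Helper88

variable {Ω : Type*} [Group Ω] {S : Subgroup Ω}

/-- the product set `P * X` as a subgroup, when `X` centralises `P` -/
def cxProd (P X : Subgroup Ω) (hc : ∀ c ∈ X, ∀ x ∈ P, c * x = x * c) : Subgroup Ω where
  carrier := {r | ∃ x ∈ P, ∃ c ∈ X, r = x * c}
  one_mem' := ⟨1, P.one_mem, 1, X.one_mem, by simp⟩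
  mul_mem' := by
    rintro a b ⟨x, hx, c, hcX, rfl⟩ ⟨y, hy, d, hd, rfl⟩
    refine ⟨x * y, P.mul_mem hx hy, c * d, X.mul_mem hcX hd, ?_⟩
    have h := hc c hcX y hy
    calc x * c * (y * d) = x * (c * y) * d := by group
      _ = x * (y * c) * d := by rw [h]
      _ = x * y * (c * d) := by group
  inv_mem' := by
    rintro a ⟨x, hx, c, hcX, rfl⟩
    refine ⟨x⁻¹, P.inv_mem hx, c⁻¹, X.inv_mem hcX, ?_⟩
    have h := hc c⁻¹ (X.inv_mem hcX) x⁻¹ (P.inv_mem hx)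
    calc (x * c)⁻¹ = c⁻¹ * x⁻¹ := by group
      _ = x⁻¹ * c⁻¹ := h

theorem sup_le_cxProd (P X : Subgroup Ω) (hc : ∀ c ∈ X, ∀ x ∈ P, c * x = x * c) :
    P ⊔ X ≤ cxProd P X hc := by
  apply sup_le
  · intro x hx
    exact ⟨x, hx, 1, X.one_mem, by simp⟩
  · intro c hcX
    exact ⟨1, P.one_mem, c, hcX, by simp⟩

theorem cx_comm (Ω : Type*) [Group Ω] : CXComm Ω := by
  intro P X N hN hXN hXP g hg r hr
  obtain ⟨x, hx, c, hcX, rfl⟩ := sup_le_cxProd P X hXP hr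
  have h1 : g * c * g⁻¹ = c := by
    rw [hXN c hcX g hg]; group
  have hy : x⁻¹ * (g * x * g⁻¹) ∈ P := P.mul_mem (P.inv_mem hx) (hN g hg x hx)
  have h2 := hXP c⁻¹ (X.inv_mem hcX) _ hy
  have h3 : (x * c)⁻¹ * (g * (x * c) * g⁻¹) = c⁻¹ * (x⁻¹ * (g * x * g⁻¹)) * (g * c * g⁻¹) := by
    group
  rw [h3, h1, h2]
  have h4 : x⁻¹ * (g * x * g⁻¹) * c⁻¹ * c = x⁻¹ * (g * x * g⁻¹) := by group
  rw [h4]
  exact hy

end Cfsg.Agent.Helper3.CXCOMM
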