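import Cfsg.Agent.Helper85.CXDefs

set_option autoImplicit false

namespace Cfsg.Agent.Helper3.CXGROW

open Cfsg Cfsg.FusionSystem Cfsg.Agent.Helper85 Cfsg.Agent.Helper88

variable {Ω : Type*} [Group Ω] {S : Subgroup Ω}

/-- the product set `R * T` as a subgroup, when `R` normalises `T` -/
def cxGrowProd (R T : Subgroup Ω) (hn : ∀ r ∈ R, ∀ t ∈ T, r * t * r⁻¹ ∈ T) : Subgroup Ω where
  carrier := {g | ∃ r ∈ R, ∃ t ∈ T, g = r * t}
  one_mem' := ⟨1, R.one_mem, 1, T.one_mem, by simp⟩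
  mul_mem' := by
    rintro a b ⟨r, hr, t, ht, rfl⟩ ⟨r', hr', t', ht', rfl⟩
    have h := hn r'⁻¹ (R.inv_mem hr') t ht
    refine ⟨r * r', R.mul_mem hr hr', (r'⁻¹ * t * r'⁻¹⁻¹) * t', T.mul_mem h ht', ?_⟩
    group
  inv_mem' := by
    rintro a ⟨r, hr, t, ht, rfl⟩
    have h := hn r hr t⁻¹ (T.inv_mem ht)
    refine ⟨r⁻¹, R.inv_mem hr, r * t⁻¹ * r⁻¹, h, ?_⟩
    group

theorem sup_le_cxGrowProd (R T : Subgroup Ω) (hn : ∀ r ∈ R, ∀ t ∈ T, r * t * r⁻¹ ∈ T) :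
    R ⊔ T ≤ cxGrowProd R T hn := by
  apply sup_le
  · intro r hr
    exact ⟨r, hr, 1, T.one_mem, by simp⟩
  · intro t ht
    exact ⟨1, R.one_mem, t, ht, by simp⟩

theorem cx_grow [Finite S] {p : ℕ} [Fact p.Prime] (hS : IsPGroup p S) {T : Subgroup Ω} (hTS : T ≤ S)
    (hTn : ∀ s ∈ S, ∀ t ∈ T, s * t * s⁻¹ ∈ T) : CXGrow S T := by
  intro R hRS hTR
  have hHS : R ⊔ T ≤ S := sup_le hRS hTS
  have hfin : Finite ↥(R ⊔ T) := Helper88.finite_of_le hHS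
  have hpH : IsPGroup p ↥(R ⊔ T) := hS.to_le hHS
  have hne : R ≠ R ⊔ T := by
    intro h
    apply hTR
    rw [h]
    exact le_sup_right
  obtain ⟨g, hgH, hgN, hgR⟩ := Helper88.exists_normalizer_of_lt hpH (le_sup_left : R ≤ R ⊔ T) hne
  have hn : ∀ r ∈ R, ∀ t ∈ T, r * t * r⁻¹ ∈ T := fun r hr t ht => hTn r (hRS hr) t ht
  obtain ⟨r, hr, t, ht, rfl⟩ := sup_le_cxGrowProd R T hn hgH
  have hrN : r ∈ Subgroup.normalizer (R : Set Ω) := Subgroup.le_normalizer hr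
  have htN : t ∈ Subgroup.normalizer (R : Set Ω) := by
    have h := (Subgroup.normalizer (R : Set Ω)).mul_mem
      ((Subgroup.normalizer (R : Set Ω)).inv_mem hrN) hgN
    have e : r⁻¹ * (r * t) = t := by group
    rwa [e] at h
  have htR : t ∉ R := fun h => hgR (R.mul_mem hr h)
  have hmem : t ∈ normalizerIn S R ⊓ T :=
    ⟨Helper88.mem_normalizerIn_iff.mpr ⟨hTS ht, htN⟩, ht⟩
  have hle : R ⊓ T ≤ normalizerIn S R ⊓ T :=
    inf_le_inf_right T (Helper88.le_normalizerIn hRS)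
  have hle2 : normalizerIn S R ⊓ T ≤ S := inf_le_right.trans hTS
  exact Helper88.card_lt_of_lt hle2 hle hmem (fun h => htR h.1)

end Cfsg.Agent.Helper3.CXGROW
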