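import Cfsg.Agent.Helper85.CXDefs

set_option autoImplicit false

namespace Cfsg.Agent.Helper3.CXLARGEST

open Cfsg Cfsg.FusionSystem Cfsg.Agent.Helper85 Cfsg.Agent.Helper88

variable {Ω : Type*} [Group Ω] {S : Subgroup Ω}

theorem inCX_bot {F : FusionSystem S} {T : Subgroup Ω} {E : FusionSystem T}
    (hsub : E.IsSubsystemOf F) : InCX F E ⊥ := by
  refine ⟨bot_le, fun P f hf => ?_⟩
  refine ⟨f, ?_, fun x _ => rfl, fun x hx => ?_⟩
  · rw [sup_bot_eq]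
    exact Helper85.isMap_of_isSubsystemOf hsub hf
  · rw [Subgroup.mem_bot] at hx
    subst hx
    obtain ⟨φ, _, hφf⟩ := hf
    have h := hφf (1 : P)
    rw [map_one] at h
    exact h.symm

theorem cx_largest [Finite S] {F : FusionSystem S} {T : Subgroup Ω} {E : FusionSystem T}
    (hsub : E.IsSubsystemOf F) (hTS : T ≤ S)
    (hjoin : ∀ X₁ X₂ : Subgroup Ω, InCX F E X₁ → InCX F E X₂ → InCX F E (X₁ ⊔ X₂)) :
    ∃ C : Subgroup Ω, InCX F E C ∧ ∀ Y : Subgroup Ω, InCX F E Y → Y ≤ C := by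
  classical
  have hleS : ∀ X : Subgroup Ω, InCX F E X → X ≤ S := fun X hX => hX.1.trans inf_le_left
  have hbound : ∀ X : Subgroup Ω, InCX F E X → Nat.card X ≤ Nat.card S := fun X hX =>
    Subgroup.card_le_of_le (hleS X hX)
  let Q : ℕ → Prop := fun n => ∃ C : Subgroup Ω, InCX F E C ∧ Nat.card C = n
  have hQ0 : Q (Nat.card (⊥ : Subgroup Ω)) := ⟨⊥, inCX_bot hsub, rfl⟩
  have hspec : Q (Nat.findGreatest Q (Nat.card S)) :=
    Nat.findGreatest_spec (hbound ⊥ (inCX_bot hsub)) hQ0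
  obtain ⟨C, hC, hCcard⟩ := hspec
  refine ⟨C, hC, fun Y hY => ?_⟩
  have hCY : InCX F E (C ⊔ Y) := hjoin C Y hC hY
  have hfin : Finite ↥(C ⊔ Y) := Helper88.finite_of_le (hleS _ hCY)
  have hle : Nat.card ↥(C ⊔ Y) ≤ Nat.card C := by
    rw [hCcard]
    exact Nat.le_findGreatest (hbound _ hCY) ⟨C ⊔ Y, hCY, rfl⟩
  have heq : C = C ⊔ Y := Subgroup.eq_of_le_of_card_ge le_sup_left hle
  rw [heq]
  exact le_sup_right

end Cfsg.Agent.Helper3.CXLARGEST
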