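import Mathlib
import Cfsg.Agent.Helper50.HigDefs
import Cfsg.Agent.Helper84.HigMU
import Cfsg.Agent.Helper91.HigR0

/-!
# CALL S3050 (Higman), piece ZK4 (helper3): core, with the normal form NF as a hypothesis

`two_eq_zero_of_four_core`: a ring `R` with `4 = 0` receiving `SL₂(K)` (`|K| > 2`, char 2) such that
`ρ(c)² + ρ(c) + 1 = 0` has `2 = 0`, provided the normal form theorem holds for rings of
characteristic two in the universe of `R` (applied to `R / 2R`).
-/

set_option autoImplicit false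
set_option linter.unusedSimpArgs false

universe uR

namespace Cfsg.Agent.Helper3.HigZK4

open Cfsg.Agent.Helper5 Cfsg.Agent.Helper50.Hig


/-- the nilpotent `e = a + 2ab`, `a = u - 1`, `b = l - 1` -/
def zkE {R : Type*} [Ring R] (u l : R) : R :=
  (u - 1) + ((u - 1) * (l - 1) + (u - 1) * (l - 1))

/-- the nilpotent `f = b + 2ba` -/
def zkF {R : Type*} [Ring R] (u l : R) : R :=
  (l - 1) + ((l - 1) * (u - 1) + (l - 1) * (u - 1))

theorem zk4_units {R : Type*} [Ring R] (u l : R) (hu : u * u = 1) (hl : l * l = 1)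
    (hul : u * l + l * u + 1 = 0) (h4 : (4 : R) = 0) :
    zkE u l * zkE u l = 0 ∧ zkF u l * zkF u l = 0 ∧
      zkE u l * zkF u l + zkF u l * zkE u l = 1 ∧
      u - 1 = zkE u l + (zkE u l * zkF u l + zkE u l * zkF u l) := by
  have hlu : l * u = -1 - u * l := by
    have h := hul
    rw [add_assoc, add_comm, add_assoc] at h
    exact eq_sub_of_add_eq (by rw [eq_neg_iff_add_eq_zero]; rw [← h]; abel)
  have hu' : ∀ x : R, u * (u * x) = x := fun x => by rw [← mul_assoc, hu, one_mul]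
  have hl' : ∀ x : R, l * (l * x) = x := fun x => by rw [← mul_assoc, hl, one_mul]
  have hlu' : ∀ x : R, l * (u * x) = -x - u * (l * x) := fun x => by
    rw [← mul_assoc, hlu, sub_mul, neg_mul, one_mul, mul_assoc]
  have h4' : ∀ x : R, x + x + x + x = 0 := by
    intro x
    have h : (4 : R) * x = x + x + x + x := by
      rw [show (4 : R) = 1 + 1 + 1 + 1 by norm_num]
      simp only [add_mul, one_mul]
    rw [← h, h4, zero_mul]
  refine ⟨?_, ?_, ?_, ?_⟩
  · simp only [zkE, mul_add, add_mul, mul_sub, sub_mul, mul_one, one_mul, mul_assoc, hu, hl,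
      hlu, hu', hl', hlu', mul_neg, neg_mul, neg_neg]
    abel
  · simp only [zkF, mul_add, add_mul, mul_sub, sub_mul, mul_one, one_mul, mul_assoc, hu, hl,
      hlu, hu', hl', hlu', mul_neg, neg_mul, neg_neg]
    abel
  · have h : zkE u l * zkF u l + zkF u l * zkE u l =
        1 + ((1 : R) + 1 + 1 + 1) + ((1 : R) + 1 + 1 + 1) := by
      simp only [zkE, zkF, mul_add, add_mul, mul_sub, sub_mul, mul_one, one_mul, mul_assoc, hu,
        hl, hlu, hu', hl', hlu', mul_neg, neg_mul, neg_neg]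
      abel
    rw [h, h4' 1, add_zero, add_zero]
  · have h : zkE u l + (zkE u l * zkF u l + zkE u l * zkF u l) =
        (u - 1) + ((-u - u + 1 + 1 - u * l + l) + (-u - u + 1 + 1 - u * l + l) +
          (-u - u + 1 + 1 - u * l + l) + (-u - u + 1 + 1 - u * l + l)) := by
      simp only [zkE, zkF, mul_add, add_mul, mul_sub, sub_mul, mul_one, one_mul, mul_assoc, hu,
        hl, hlu, hu', hl', hlu', mul_neg, neg_mul, neg_neg]
      abel
    rw [h, h4' _, add_zero]




theorem zk4_key {R : Type*} [Ring R] (e f a X : R) (he : e * e = 0) (hf : f * f = 0)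
    (hef : e * f + f * e = 1) (hae : a = e + (e * f + e * f)) (hXa : X * a = a * X)
    (hXX : X * X = 1) :
    ∃ p q : R, p * e = e * p ∧ p * f = f * p ∧ q * e = e * q ∧ q * f = f * q ∧
      p * q + q * (p - (q + q)) = 0 ∧
      X = p * (e * f) + q * e + (p - (q + q)) * (f * e) := by
  obtain ⟨Φ, hΦinj, hΦe, hΦf, hΦz⟩ := Cfsg.Agent.Helper84.HigMU.exists_matrix_hom e f he hf hef
  have hΦa : Φ a = !![1 + 1, 1; 0, 0] := by
    rw [hae, map_add, map_add, map_mul, hΦe, hΦf]
    ext i j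
    fin_cases i <;> fin_cases j <;> simp [Matrix.mul_apply, Fin.sum_univ_two]
  have hcomm : Φ X * Φ a = Φ a * Φ X := by rw [← map_mul, ← map_mul, hXa]
  have hsq : Φ X * Φ X = 1 := by rw [← map_mul, hXX, map_one]
  obtain ⟨p, q, r, t, hM⟩ : ∃ p q r t, Φ X = !![p, q; r, t] := ⟨_, _, _, _, Matrix.eta_fin_two _⟩
  rw [hM, hΦa, Matrix.mul_fin_two, Matrix.mul_fin_two] at hcomm
  rw [hM, Matrix.mul_fin_two, Matrix.one_fin_two] at hsq
  have h00 := congrFun (congrFun hcomm 0) 0
  have h01 := congrFun (congrFun hcomm 0) 1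
  have s01 := congrFun (congrFun hsq 0) 1
  simp at h00 h01 s01
  have hr : r = 0 := by
    have h : p + p = p + p + r := by
      rw [mul_add, mul_one, add_mul, one_mul] at h00
      exact h00
    simpa using h
  have ht : t = p - (q + q) := by
    rw [add_mul, one_mul] at h01
    exact eq_sub_iff_add_eq'.mpr h01.symm
  have hpe : (p : R) * e = e * p := (Subring.mem_centralizer_iff.mp p.2 e (by simp)).symm
  have hpf : (p : R) * f = f * p := (Subring.mem_centralizer_iff.mp p.2 f (by simp)).symm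
  have hqe : (q : R) * e = e * q := (Subring.mem_centralizer_iff.mp q.2 e (by simp)).symm
  have hqf : (q : R) * f = f * q := (Subring.mem_centralizer_iff.mp q.2 f (by simp)).symm
  refine ⟨p, q, hpe, hpf, hqe, hqf, ?_, ?_⟩
  · rw [ht] at s01
    have h := congrArg Subtype.val s01
    push_cast at h
    exact h
  · apply hΦinj
    have hc : ((p : R) - ((q : R) + (q : R))) = ((p - (q + q) : Subring.centralizer ({e, f} : Set R)) : R) := by
      push_cast
      rfl
    rw [hc, map_add, map_add, map_mul, map_mul, map_mul, map_mul, map_mul, hΦz, hΦz, hΦz, hΦe, hΦf,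
      hM, hr, ht]
    ext i j
    fin_cases i <;> fin_cases j <;> simp [Matrix.mul_apply, Fin.sum_univ_two]



theorem zk4_uniq {S : Type*} [Ring S] (a b : S) (ha : a * a = 0) (hab : a * b + b * a = 1)
    (α β : S) (hαb : α * b = b * α) (hβb : β * b = b * β)
    (h : α + β * a = 0) : α = 0 ∧ β = 0 := by
  have h1 : α * a = 0 := by
    have h' := congrArg (· * a) h
    simp only [add_mul, mul_assoc, ha, mul_zero, add_zero, zero_mul] at h'
    exact h'
  have hα : α = 0 := by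
    calc α = α * (a * b + b * a) := by rw [hab, mul_one]
      _ = (α * a) * b + b * (α * a) := by
          rw [mul_add, ← mul_assoc, ← mul_assoc, hαb, mul_assoc b]
      _ = 0 := by rw [h1, zero_mul, mul_zero, add_zero]
  have h2 : β * a = 0 := by
    rw [hα, zero_add] at h
    exact h
  have hβ : β = 0 := by
    calc β = β * (a * b + b * a) := by rw [hab, mul_one]
      _ = (β * a) * b + b * (β * a) := by
          rw [mul_add, ← mul_assoc, ← mul_assoc, hβb, mul_assoc b]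
      _ = 0 := by rw [h2, zero_mul, mul_zero, add_zero]
  exact ⟨hα, hβ⟩

theorem zk4_final {R S : Type*} [Ring R] [Ring S] (h4 : (4 : R) = 0) (π : R →+* S)
    (hS : ∀ s : S, s + s = 0) (hker : ∀ x : R, π x = 0 → ∃ z : R, x = z + z)
    (m : ℕ) (hm : Odd m) (p q q' q'' : R)
    (hrel : p * q + q * (p - (q + q)) = 0) (hπp : π p = 1) (hqq' : π (q' * q) = 1)
    (hq'm : π (q' ^ m) = 1) (hqm : π (q ^ m) = 1) (hq'' : π ((1 + q) * q'') = 1) :
    (2 : R) = 0 := by
  have h4' : ∀ x : R, x + x + x + x = 0 := by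
    intro x
    have h : (4 : R) * x = x + x + x + x := by
      rw [show (4 : R) = 1 + 1 + 1 + 1 by norm_num]
      simp only [add_mul, one_mul]
    rw [← h, h4, zero_mul]
  have hker1 : ∀ x : R, π x = 1 → ∃ z : R, x = 1 + (z + z) := by
    intro x hx
    obtain ⟨z, hz⟩ := hker (x - 1) (by rw [map_sub, hx, map_one, sub_self])
    exact ⟨z, by rw [← hz]; abel⟩
  -- r
  obtain ⟨z₀, hz₀⟩ := hker1 p hπp
  obtain ⟨r, hr⟩ : ∃ r : R, r = z₀ + z₀ := ⟨_, rfl⟩
  rw [← hr] at hz₀
  have h2r : r + r = 0 := by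
    rw [hr, ← h4' z₀]
    abel
  -- qi
  obtain ⟨z₁, hz₁⟩ := hker1 (q' * q) hqq'
  obtain ⟨qi, hqi⟩ : ∃ qi : R, qi = (1 + (z₁ + z₁)) * q' := ⟨_, rfl⟩
  have hqiq : qi * q = 1 := by
    rw [hqi, mul_assoc, hz₁]
    have e1 : (1 + (z₁ + z₁)) * (1 + (z₁ + z₁)) =
        1 + (z₁ + z₁ + z₁ + z₁) + (z₁ * z₁ + z₁ * z₁ + z₁ * z₁ + z₁ * z₁) := by
      simp only [mul_add, add_mul, mul_one, one_mul]
      abel
    rw [e1, h4', h4', add_zero, add_zero]
  -- c
  obtain ⟨c, hc⟩ : ∃ c : R, c = (1 + 1) + (q + q) := ⟨_, rfl⟩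
  have hrq : r * q + q * r = q * c := by
    rw [hz₀] at hrel
    have e1 : r * q + q * r - q * c =
        ((1 + r) * q + q * ((1 + r) - (q + q))) - (q + q + q + q) := by
      rw [hc]
      simp only [mul_add, add_mul, mul_sub, sub_mul, mul_one, one_mul]
      abel
    rw [hrel, h4', sub_zero] at e1
    exact sub_eq_zero.mp e1
  have hκr : qi * r * q = c - r := by
    have e1 : qi * (r * q + q * r) = qi * r * q + r := by
      rw [mul_add, ← mul_assoc, ← mul_assoc, hqiq, one_mul]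
    rw [hrq, ← mul_assoc, hqiq, one_mul] at e1
    rw [e1]
    abel
  have hκc : qi * c * q = c := by
    have e1 : qi * c * q = (qi * q + qi * q) + (qi * q * q + qi * q * q) := by
      rw [hc]
      simp only [mul_add, add_mul, mul_one, mul_assoc]
    rw [e1, hqiq, one_mul, hc]
  have hκκ : qi * (qi * r * q) * q = r := by
    rw [hκr, mul_sub, sub_mul, hκc, hκr]
    abel
  have heven : ∀ j : ℕ, qi ^ (2 * j) * r * q ^ (2 * j) = r := by
    intro j
    induction j with
    | zero => simp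
    | succ j ih =>
      have e1 : qi ^ (2 * (j + 1)) = qi * (qi * qi ^ (2 * j)) := by
        rw [show 2 * (j + 1) = 2 * j + 1 + 1 by ring, pow_succ', pow_succ']
      have e2 : q ^ (2 * (j + 1)) = q ^ (2 * j) * q * q := by
        rw [show 2 * (j + 1) = 2 * j + 1 + 1 by ring, pow_succ, pow_succ]
      rw [e1, e2]
      have e3 : qi * (qi * qi ^ (2 * j)) * r * (q ^ (2 * j) * q * q) =
          qi * (qi * (qi ^ (2 * j) * r * q ^ (2 * j)) * q) * q := by
        simp only [mul_assoc]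
      rw [e3, ih, hκκ]
  obtain ⟨j, hj⟩ := hm
  have hodd : qi ^ m * r * q ^ m = c - r := by
    rw [hj, pow_succ', pow_succ]
    have e3 : qi * qi ^ (2 * j) * r * (q ^ (2 * j) * q) =
        qi * (qi ^ (2 * j) * r * q ^ (2 * j)) * q := by
      simp only [mul_assoc]
    rw [e3, heven, hκr]
  obtain ⟨z₂, hz₂⟩ := hker1 (q ^ m) hqm
  have hπqi : π qi = π q' := by
    rw [hqi, map_mul, map_add, map_add, map_one, hS, add_zero, one_mul]
  obtain ⟨z₃, hz₃⟩ := hker1 (qi ^ m) (by rw [map_pow, hπqi, ← map_pow, hq'm])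
  have hfix : qi ^ m * r * q ^ m = r := by
    rw [hz₂, hz₃]
    have e1 : (1 + (z₃ + z₃)) * r * (1 + (z₂ + z₂)) =
        r + z₃ * (r + r) + (r + r) * z₂ + z₃ * (r + r) * (z₂ + z₂) := by
      simp only [mul_add, add_mul, mul_one, one_mul, mul_assoc]
      abel
    rw [e1, h2r, mul_zero, zero_mul, zero_mul, add_zero, add_zero, add_zero]
  have hc0 : c = 0 := by
    have e1 : c - r = r := by rw [← hodd, hfix]
    have e2 : c = r + r := eq_add_of_sub_eq e1
    rw [e2, h2r]
  obtain ⟨z₄, hz₄⟩ := hker1 ((1 + q) * q'') hq''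
  have e1 : c * q'' = (1 + q) * q'' + (1 + q) * q'' := by
    rw [hc]
    simp only [add_mul, mul_add]
    abel
  rw [hc0, zero_mul, hz₄] at e1
  have e2 : (2 : R) = (1 + (z₄ + z₄) + (1 + (z₄ + z₄))) - (z₄ + z₄ + z₄ + z₄) := by
    rw [← one_add_one_eq_two]
    abel
  rw [e2, ← e1, h4', sub_zero]


theorem zk4_abstract {K : Type*} [Field K] [Fintype K] [CharP K 2] (hK : 2 < Fintype.card K)
    {R S : Type*} [Ring R] [Ring S] (h4 : (4 : R) = 0) (ρ : SL2 K →* R)
    (hρ : ρ (cSL K) * ρ (cSL K) + ρ (cSL K) + 1 = 0)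
    (π : R →+* S) (hS : ∀ s : S, s + s = 0) (hker : ∀ x : R, π x = 0 → ∃ z : R, x = z + z)
    (Qf : K → S)
    (hQb : ∀ s, Qf s * (π (ρ (lSL 1)) + 1) = (π (ρ (lSL 1)) + 1) * Qf s)
    (hQ1 : Qf 1 = 1) (hQadd : ∀ s t, Qf (s + t) = Qf s + Qf t)
    (hQmul : ∀ s t, Qf (s * t) = Qf s * Qf t)
    (hQu : ∀ s, π (ρ (uSL s)) = 1 + Qf s * (π (ρ (uSL 1)) + 1)) : (2 : R) = 0 := by
  obtain ⟨-, huu, hllsq, -⟩ := Cfsg.Agent.Helper91.HigR0.sl2_rel (K := K)
  obtain ⟨u, hu_def⟩ : ∃ u : R, u = ρ (uSL 1) := ⟨_, rfl⟩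
  obtain ⟨l, hl_def⟩ : ∃ l : R, l = ρ (lSL 1) := ⟨_, rfl⟩
  rw [← hu_def] at hQu
  rw [← hl_def] at hQb
  have hu : u * u = 1 := by rw [hu_def, ← map_mul, huu, map_one]
  have hl : l * l = 1 := by rw [hl_def, ← map_mul, hllsq, map_one]
  have hu' : ∀ x : R, u * (u * x) = x := fun x => by rw [← mul_assoc, hu, one_mul]
  have hl' : ∀ x : R, l * (l * x) = x := fun x => by rw [← mul_assoc, hl, one_mul]
  have hw : (u * l) * (u * l) + u * l + 1 = 0 := by
    have hc : ρ (cSL K) = u * l := by rw [hu_def, hl_def, ← map_mul]; rfl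
    rw [hc] at hρ
    exact hρ
  have hul : u * l + l * u + 1 = 0 := by
    have h1 : (u * l) * (u * l) + u * l = -1 := eq_neg_of_add_eq_zero_left hw
    have h2 : l * u * ((u * l) * (u * l) + u * l) = u * l + 1 := by
      simp only [mul_add, mul_assoc]
      rw [hu', hl', hu', hl]
    rw [h1, mul_neg, mul_one] at h2
    have h3 : l * u = -(u * l + 1) := by rw [← h2, neg_neg]
    rw [h3]
    abel
  obtain ⟨he, hf, hef, hae⟩ := zk4_units u l hu hl hul h4
  have hneg1 : (-1 : S) = 1 := neg_eq_of_add_eq_zero_right (hS 1)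
  have hπe : π (zkE u l) = π u + 1 := by
    unfold zkE
    rw [map_add, map_add, hS, add_zero, map_sub, map_one, sub_eq_add_neg, hneg1]
  have hπf : π (zkF u l) = π l + 1 := by
    unfold zkF
    rw [map_add, map_add, hS, add_zero, map_sub, map_one, sub_eq_add_neg, hneg1]
  have ha2 : (π u + 1) * (π u + 1) = 0 := by rw [← hπe, ← map_mul, he, map_zero]
  have hab : (π u + 1) * (π l + 1) + (π l + 1) * (π u + 1) = 1 := by
    rw [← hπe, ← hπf, ← map_mul, ← map_mul, ← map_add, hef, map_one]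
  have key : ∀ t : K, ∃ p q : R, p * q + q * (p - (q + q)) = 0 ∧ π p = 1 ∧ π q = Qf t := by
    intro t
    have hXu : ρ (uSL t) * u = u * ρ (uSL t) := by
      rw [hu_def, ← map_mul, ← map_mul, uSL_mul, uSL_mul, add_comm]
    have hXa : ρ (uSL t) * (u - 1) = (u - 1) * ρ (uSL t) := by
      rw [mul_sub, sub_mul, mul_one, one_mul, hXu]
    have hXX : ρ (uSL t) * ρ (uSL t) = 1 := by rw [← map_mul, huu, map_one]
    obtain ⟨p, q, -, hpf, -, hqf, hrel, hX⟩ :=
      zk4_key (zkE u l) (zkF u l) (u - 1) (ρ (uSL t)) he hf hef hae hXa hXX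
    have h1 : π (ρ (uSL t)) = π p + π q * (π u + 1) := by
      rw [hX, map_add, map_add, map_mul, map_mul, map_mul, map_mul, map_mul, map_sub, map_add,
        hS, sub_zero, hπe, hπf, add_right_comm, ← mul_add, hab, mul_one]
    have h2 : (π p - 1) + (π q - Qf t) * (π u + 1) = 0 := by
      have h3 := hQu t
      rw [h1] at h3
      rw [sub_mul, ← sub_eq_zero.mpr h3]
      abel
    have hαb : (π p - 1) * (π l + 1) = (π l + 1) * (π p - 1) := by
      have h3 : π p * π (zkF u l) = π (zkF u l) * π p := by rw [← map_mul, ← map_mul, hpf]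
      rw [hπf] at h3
      rw [sub_mul, mul_sub, h3, one_mul, mul_one]
    have hβb : (π q - Qf t) * (π l + 1) = (π l + 1) * (π q - Qf t) := by
      have h3 : π q * π (zkF u l) = π (zkF u l) * π q := by rw [← map_mul, ← map_mul, hqf]
      rw [hπf] at h3
      rw [sub_mul, mul_sub, h3, hQb t]
    obtain ⟨h4a, h4b⟩ := zk4_uniq (π u + 1) (π l + 1) ha2 hab (π p - 1) (π q - Qf t) hαb hβb h2
    exact ⟨p, q, hrel, sub_eq_zero.mp h4a, sub_eq_zero.mp h4b⟩
  -- an element `s ∉ {0, 1}`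
  classical
  obtain ⟨s, hs⟩ : ∃ s : K, s ∉ ({0, 1} : Finset K) := by
    by_contra hcon
    push Not at hcon
    have h1 := Finset.card_le_card (fun x _ => hcon x : (Finset.univ : Finset K) ⊆ {0, 1})
    rw [Finset.card_univ] at h1
    have h2 := Finset.card_le_two (a := (0 : K)) (b := 1)
    omega
  have hs0 : s ≠ 0 := fun h => hs (by rw [h]; simp)
  have hs1 : s ≠ 1 := fun h => hs (by rw [h]; simp)
  have h1s : 1 + s ≠ 0 := by
    intro h
    apply hs1
    have h1 : s = -1 := eq_neg_of_add_eq_zero_right h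
    rw [h1, CharTwo.neg_eq]
  have hQpow : ∀ (t : K) (n : ℕ), Qf (t ^ n) = Qf t ^ n := by
    intro t n
    induction n with
    | zero => rw [pow_zero, pow_zero, hQ1]
    | succ n ih => rw [pow_succ, pow_succ, hQmul, ih]
  have hsm : s ^ (Fintype.card K - 1) = 1 := FiniteField.pow_card_sub_one_eq_one s hs0
  have hm : Odd (Fintype.card K - 1) := by
    have h1 : Fintype.card K % 2 = 0 := FiniteField.even_card_of_char_two (ringChar.eq K 2)
    rw [Nat.odd_iff]
    omega
  obtain ⟨p, q, hrel, hπp, hπq⟩ := key s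
  obtain ⟨-, q', -, -, hπq'⟩ := key s⁻¹
  obtain ⟨-, q'', -, -, hπq''⟩ := key (1 + s)⁻¹
  have hqq' : π (q' * q) = 1 := by
    rw [map_mul, hπq', hπq, ← hQmul, inv_mul_cancel₀ hs0, hQ1]
  have hq'm : π (q' ^ (Fintype.card K - 1)) = 1 := by
    rw [map_pow, hπq', ← hQpow, inv_pow, hsm, inv_one, hQ1]
  have hqm : π (q ^ (Fintype.card K - 1)) = 1 := by
    rw [map_pow, hπq, ← hQpow, hsm, hQ1]
  have hq'' : π ((1 + q) * q'') = 1 := by
    have h1 : 1 + Qf s = Qf (1 + s) := by rw [hQadd, hQ1]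
    rw [map_mul, map_add, map_one, hπq, hπq'', h1, ← hQmul, mul_inv_cancel₀ h1s, hQ1]
  exact zk4_final h4 π hS hker (Fintype.card K - 1) hm p q q' q'' hrel hπp hqq' hq'm hqm hq''

/-- PIECE ZK4 (core): the normal form theorem for the quotient `R / 2R` as a hypothesis -/
theorem two_eq_zero_of_four_core {K : Type*} [Field K] [Fintype K] [CharP K 2]
    (hK : 2 < Fintype.card K) {R : Type uR} [Ring R] (h4 : (4 : R) = 0) (ρ : SL2 K →* R)
    (hρ : ρ (cSL K) * ρ (cSL K) + ρ (cSL K) + 1 = 0)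
    (hNF : ∀ (S : Type uR) [Ring S] (_ : ∀ r : S, r + r = 0) (ρ' : SL2 K →* S)
      (_ : ρ' (cSL K) * ρ' (cSL K) + ρ' (cSL K) + 1 = 0),
      ∃ Qf : K → S, (∀ s, Qf s * (ρ' (lSL 1) + 1) = (ρ' (lSL 1) + 1) * Qf s) ∧ Qf 1 = 1 ∧
        (∀ s t, Qf (s + t) = Qf s + Qf t) ∧ (∀ s t, Qf (s * t) = Qf s * Qf t) ∧
        (∀ s, ρ' (uSL s) = 1 + Qf s * (ρ' (uSL 1) + 1))) : (2 : R) = 0 := by
  have hI : (Ideal.span {(2 : R)}).IsTwoSided := ⟨fun {a} b ha => by
    rw [Ideal.mem_span_singleton'] at ha ⊢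
    obtain ⟨z, rfl⟩ := ha
    exact ⟨z * b, by rw [mul_assoc, mul_assoc, mul_two, two_mul]⟩⟩
  have hS : ∀ s : R ⧸ Ideal.span {(2 : R)}, s + s = 0 := by
    intro s
    obtain ⟨x, rfl⟩ := Ideal.Quotient.mk_surjective s
    rw [← map_add, Ideal.Quotient.eq_zero_iff_mem, Ideal.mem_span_singleton']
    exact ⟨x, mul_two x⟩
  have hker : ∀ x : R, Ideal.Quotient.mk (Ideal.span {(2 : R)}) x = 0 → ∃ z : R, x = z + z := by
    intro x hx
    rw [Ideal.Quotient.eq_zero_iff_mem, Ideal.mem_span_singleton'] at hx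
    obtain ⟨z, rfl⟩ := hx
    exact ⟨z, mul_two z⟩
  have hρ' : ((Ideal.Quotient.mk (Ideal.span {(2 : R)})).toMonoidHom.comp ρ) (cSL K) *
      ((Ideal.Quotient.mk (Ideal.span {(2 : R)})).toMonoidHom.comp ρ) (cSL K) +
      ((Ideal.Quotient.mk (Ideal.span {(2 : R)})).toMonoidHom.comp ρ) (cSL K) + 1 = 0 := by
    have h1 := congrArg (Ideal.Quotient.mk (Ideal.span {(2 : R)})) hρ
    rw [map_add, map_add, map_mul, map_one, map_zero] at h1
    exact h1
  obtain ⟨Qf, hQb, hQ1, hQadd, hQmul, hQu⟩ := hNF (R ⧸ Ideal.span {(2 : R)}) hS _ hρ'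
  exact zk4_abstract hK h4 ρ hρ (Ideal.Quotient.mk (Ideal.span {(2 : R)})) hS hker Qf hQb hQ1
    hQadd hQmul hQu

end Cfsg.Agent.Helper3.HigZK4
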