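import Mathlib
import Cfsg.Agent.Helper50.HigDefs
import Cfsg.Agent.Helper3.HigZK4Core
import Cfsg.Agent.Helper91.HigNF

/-!
# CALL S3050 (Higman), piece ZK4 (helper3)
-/

set_option autoImplicit false

namespace Cfsg.Agent.Helper3.HigZK4

open Cfsg.Agent.Helper5 Cfsg.Agent.Helper50.Hig

/-- PIECE ZK4 (uses MU, NF, R0) -/
theorem two_eq_zero_of_four {K : Type*} [Field K] [Fintype K] [CharP K 2]
    (hK : 2 < Fintype.card K) {R : Type*} [Ring R] (h4 : (4 : R) = 0) (ρ : SL2 K →* R)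
    (hρ : ρ (cSL K) * ρ (cSL K) + ρ (cSL K) + 1 = 0) : (2 : R) = 0 := by
  apply two_eq_zero_of_four_core hK h4 ρ hρ
  intro S _ h2 ρ' hρ'
  obtain ⟨-, -, -, Qf, -, hQb, hQ1, hQadd, hQmul, hQu, -⟩ :=
    Cfsg.Agent.Helper91.HigNF.normal_form h2 ρ' hρ'
  exact ⟨Qf, hQb, hQ1, hQadd, hQmul, hQu⟩

end Cfsg.Agent.Helper3.HigZK4
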