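import Mathlib
import Cfsg.Agent.Helper90.MDDefs
import Cfsg.Agent.Helper91.MDAVG
import Cfsg.Agent.Helper58.MDCORE

/-!
# CALL S2332, piece D (helper3): `lemD`, `lemD_val`
-/

set_option autoImplicit false

namespace Cfsg.Agent.Helper3

open Cfsg.Agent.Helper90.MD
open Cfsg.Agent.Helper91 (ptr_avg ptr_avg_one)
open Cfsg.Agent.Helper58.MDCore (core)

section
variable {G : Type*} [Group G] {V : Type*} [AddCommGroup V] [Module ℂ V]

/-- relative characters are invariant under conjugation by elements of `N` -/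
theorem mdD_ptr_conj (ρ : Representation ℂ G V) (N : Subgroup G) (P : V →ₗ[ℂ] V)
    (hP : IsProjFor ρ N P) (n h : G) (hn : n ∈ N) :
    ptr ρ P (n * h * n⁻¹) = ptr ρ P h := by
  have h1 : ρ n⁻¹ * P = P * ρ n⁻¹ := hP.2 _ (N.inv_mem hn)
  have h3 : ρ n⁻¹ * ρ n = 1 := by rw [← map_mul, inv_mul_cancel, map_one]
  have h4 : ρ (n * h * n⁻¹) = ρ n * ρ h * ρ n⁻¹ := by rw [map_mul, map_mul]
  show LinearMap.trace ℂ V (ρ (n * h * n⁻¹) * P) = LinearMap.trace ℂ V (ρ h * P)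
  rw [h4]
  calc LinearMap.trace ℂ V (ρ n * ρ h * ρ n⁻¹ * P)
      = LinearMap.trace ℂ V (ρ n * (ρ h * P * ρ n⁻¹)) := by
        rw [mul_assoc (ρ n * ρ h), h1]
        simp only [mul_assoc]
    _ = LinearMap.trace ℂ V (ρ h * P * ρ n⁻¹ * ρ n) := LinearMap.trace_mul_comm _ _ _
    _ = LinearMap.trace ℂ V (ρ h * P) := by rw [mul_assoc (ρ h * P), h3, mul_one]

/-- the commutator map `y ↦ [y, g]` on an abelian subgroup normalised by `g` -/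
noncomputable def mdD_hom (A : Subgroup G) (hA : ∀ x ∈ A, ∀ y ∈ A, x * y = y * x) (g : G)
    (hg : NormBy g A) : ↥A →* G where
  toFun y := (y : G) * g * (y : G)⁻¹ * g⁻¹
  map_one' := by simp
  map_mul' := by
    intro y y'
    show ((y * y' : ↥A) : G) * g * ((y * y' : ↥A) : G)⁻¹ * g⁻¹ =
      ((y : G) * g * (y : G)⁻¹ * g⁻¹) * ((y' : G) * g * (y' : G)⁻¹ * g⁻¹)
    have hu : g * (y : G)⁻¹ * g⁻¹ ∈ A := hg.1 _ (A.inv_mem y.2)
    have hu' : g * (y' : G)⁻¹ * g⁻¹ ∈ A := hg.1 _ (A.inv_mem y'.2)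
    have e1 := hA _ hu _ (A.mul_mem y'.2 hu')
    rw [Subgroup.coe_mul]
    calc (y : G) * (y' : G) * g * ((y : G) * (y' : G))⁻¹ * g⁻¹
        = (y : G) * (((y' : G) * (g * (y' : G)⁻¹ * g⁻¹)) * (g * (y : G)⁻¹ * g⁻¹)) := by group
      _ = (y : G) * ((g * (y : G)⁻¹ * g⁻¹) * ((y' : G) * (g * (y' : G)⁻¹ * g⁻¹))) := by rw [e1]
      _ = _ := by group

theorem mdD_hom_range (A : Subgroup G) (hA : ∀ x ∈ A, ∀ y ∈ A, x * y = y * x) (g : G)
    (hg : NormBy g A) : (mdD_hom A hA g hg).range = bsub A g := by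
  apply le_antisymm
  · rintro _ ⟨y, rfl⟩
    exact Subgroup.subset_closure ⟨y, y.2, rfl⟩
  · refine (Subgroup.closure_le _).mpr ?_
    rintro _ ⟨y, hy, rfl⟩
    exact ⟨⟨y, hy⟩, rfl⟩

theorem mdD_mem_bsub (A : Subgroup G) (hA : ∀ x ∈ A, ∀ y ∈ A, x * y = y * x) (g : G)
    (hg : NormBy g A) (b : G) (hb : b ∈ bsub A g) : ∃ y ∈ A, b = y * g * y⁻¹ * g⁻¹ := by
  rw [← mdD_hom_range A hA g hg] at hb
  obtain ⟨y, rfl⟩ := hb
  exact ⟨y, y.2, rfl⟩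

theorem mdD_bsub_le (A : Subgroup G) (g : G) (hg : NormBy g A) : bsub A g ≤ A := by
  refine (Subgroup.closure_le _).mpr ?_
  rintro _ ⟨y, hy, rfl⟩
  have h1 : g * y⁻¹ * g⁻¹ ∈ A := hg.1 _ (A.inv_mem hy)
  have h2 : y * g * y⁻¹ * g⁻¹ = y * (g * y⁻¹ * g⁻¹) := by group
  rw [h2]
  exact A.mul_mem hy h1

theorem mdD_card [Finite G] (A : Subgroup G) (hA : ∀ x ∈ A, ∀ y ∈ A, x * y = y * x) (g : G)
    (hg : NormBy g A) : cent A g * Nat.card (bsub A g) = Nat.card A := by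
  have h1 := Subgroup.card_mul_index (mdD_hom A hA g hg).ker
  rw [Subgroup.index_ker, mdD_hom_range] at h1
  rw [← h1]
  congr 1
  unfold cent
  symm
  refine Nat.card_congr ⟨fun k => ⟨(k.1 : G), k.1.2, ?_⟩, fun x => ⟨⟨x.1, x.2.1⟩, ?_⟩,
    fun k => rfl, fun x => rfl⟩
  · have hk := k.2
    rw [MonoidHom.mem_ker] at hk
    have hk' : ((k.1 : ↥A) : G) * g * ((k.1 : ↥A) : G)⁻¹ * g⁻¹ = 1 := hk
    rw [mul_inv_eq_one, mul_inv_eq_iff_eq_mul] at hk'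
    exact hk'.symm
  · rw [MonoidHom.mem_ker]
    show x.1 * g * x.1⁻¹ * g⁻¹ = 1
    rw [mul_inv_eq_one, mul_inv_eq_iff_eq_mul]
    exact x.2.2.symm

theorem mdD_finsum_const [Finite G] (D : Subgroup G) (f : G → ℂ) (c : ℂ)
    (h : ∀ x ∈ D, f x = c) : ∑ᶠ x : D, f (x : G) = (Nat.card D : ℂ) * c := by
  classical
  have i1 : Fintype D := Fintype.ofFinite D
  have h1 : ∀ x : ↥D, f (x : G) = c := fun x => h x.1 x.2
  simp only [h1]
  rw [finsum_eq_sum_of_fintype, Finset.sum_const, Finset.card_univ, ← Nat.card_eq_fintype_card,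
    nsmul_eq_mul]

theorem mdD_finsum_shift (D : Subgroup G) (f : G → ℂ) (x : G) (hx : x ∈ D) :
    ∑ᶠ y : D, f (x * (y : G)) = ∑ᶠ y : D, f (y : G) :=
  finsum_comp_equiv (Equiv.mulLeft (⟨x, hx⟩ : D)) (f := fun y : D => f (y : G))

theorem mdD_avg_one_A [Finite G] [FiniteDimensional ℂ V] (ρ : Representation ℂ G V)
    (N A : Subgroup G) (P : V →ₗ[ℂ] V) (hP : IsProjFor ρ N P) (hAN : A ≤ N) (τ : ℂ)
    (hm : MultOne ρ P A τ) : ptr ρ (P ∘ₗ avg ρ A) 1 = τ + 1 := by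
  have hA0 : (Nat.card A : ℂ) ≠ 0 := Nat.cast_ne_zero.mpr Nat.card_pos.ne'
  have h1 := ptr_avg_one ρ N A P hP hAN τ hm.1
  have h2 := hm.2
  have h3 : ptr ρ (P ∘ₗ avg ρ A) 1 * (Nat.card A : ℂ) = (τ + 1) * (Nat.card A : ℂ) := by
    rw [h1]
    linear_combination h2
  exact mul_right_cancel₀ hA0 h3

theorem mdD_avg_one_B [Finite G] [FiniteDimensional ℂ V] (ρ : Representation ℂ G V)
    (N A : Subgroup G) (P : V →ₗ[ℂ] V) (hP : IsProjFor ρ N P) (hAN : A ≤ N)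
    (hA : ∀ x ∈ A, ∀ y ∈ A, x * y = y * x) (τ : ℂ) (hm : MultOne ρ P A τ)
    (g : G) (hg : NormBy g A) :
    ptr ρ (P ∘ₗ avg ρ (bsub A g)) 1 = τ + (cent A g : ℂ) := by
  have hBA : bsub A g ≤ A := mdD_bsub_le A g hg
  have hB0 : (Nat.card (bsub A g) : ℂ) ≠ 0 := Nat.cast_ne_zero.mpr Nat.card_pos.ne'
  have hcard : (cent A g : ℂ) * (Nat.card (bsub A g) : ℂ) = (Nat.card A : ℂ) := by
    exact_mod_cast mdD_card A hA g hg
  have h1 := ptr_avg_one ρ N (bsub A g) P hP (hBA.trans hAN) τ (fun x hx => hm.1 x (hBA hx))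
  have h2 := hm.2
  have h3 : ptr ρ (P ∘ₗ avg ρ (bsub A g)) 1 * (Nat.card (bsub A g) : ℂ) =
      (τ + (cent A g : ℂ)) * (Nat.card (bsub A g) : ℂ) := by
    rw [h1]
    linear_combination h2 - hcard
  exact mul_right_cancel₀ hB0 h3

/-- PIECE D (1/2) -/
theorem lemD [Finite G] [FiniteDimensional ℂ V] (ρ : Representation ℂ G V) (N A : Subgroup G)
    (P : V →ₗ[ℂ] V) (hP : IsProjFor ρ N P) (hAN : A ≤ N)
    (hA : ∀ x ∈ A, ∀ y ∈ A, x * y = y * x) (τ : ℂ) (hm : MultOne ρ P A τ)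
    (g : G) (hgN : g ∈ N) (hg : NormBy g A) (hT : PropT N A (bsub A g) g) :
    ptr ρ (P ∘ₗ avg ρ A) g = ptr ρ P g + 1 - (cent A g : ℂ) := by
  have hBA : bsub A g ≤ A := mdD_bsub_le A g hg
  have hBN : bsub A g ≤ N := hBA.trans hAN
  have hB0 : (Nat.card (bsub A g) : ℂ) ≠ 0 := Nat.cast_ne_zero.mpr Nat.card_pos.ne'
  have h6 : ptr ρ (P ∘ₗ avg ρ (bsub A g)) g = ptr ρ P g := by
    have h := ptr_avg ρ N (bsub A g) P hP hBN g
    rw [mdD_finsum_const (bsub A g) (fun x => ptr ρ P (g * x)) (ptr ρ P g) (fun x hx => ?_)] at h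
    · exact mul_right_cancel₀ hB0 (h.trans (mul_comm _ _))
    · obtain ⟨y, hy, rfl⟩ := mdD_mem_bsub A hA g hg x hx
      have e : g * (y * g * y⁻¹ * g⁻¹) = g * (y * g * y⁻¹) * g⁻¹ := by group
      show ptr ρ P (g * (y * g * y⁻¹ * g⁻¹)) = ptr ρ P g
      rw [e, mdD_ptr_conj ρ N P hP g _ hgN, mdD_ptr_conj ρ N P hP y g (hAN hy)]
  have h8A := mdD_avg_one_A ρ N A P hP hAN τ hm
  have h8B := mdD_avg_one_B ρ N A P hP hAN hA τ hm g hg
  have h7 := core ρ N A P hP hAN hA τ hm g hgN hg (bsub A g) le_rfl hBA hT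
  have h7' := congrArg (LinearMap.trace ℂ V) h7
  simp only [LinearMap.comp_sub, map_sub] at h7'
  have e1 : ∀ Q : V →ₗ[ℂ] V, LinearMap.trace ℂ V Q = ptr ρ Q 1 := by
    intro Q
    unfold ptr
    rw [map_one]
    rfl
  rw [e1 (P ∘ₗ avg ρ (bsub A g)), e1 (P ∘ₗ avg ρ A), h8A, h8B] at h7'
  change ptr ρ (P ∘ₗ avg ρ (bsub A g)) g - ptr ρ (P ∘ₗ avg ρ A) g = _ at h7'
  rw [h6] at h7'
  linear_combination -h7'

/-- PIECE D (2/2) -/
theorem lemD_val [Finite G] [FiniteDimensional ℂ V] (ρ : Representation ℂ G V)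
    (N A : Subgroup G) (P : V →ₗ[ℂ] V) (hP : IsProjFor ρ N P) (hAN : A ≤ N)
    (hA : ∀ x ∈ A, ∀ y ∈ A, x * y = y * x) (τ : ℂ) (hm : MultOne ρ P A τ)
    (g : G) (hgN : g ∈ N) (hg : NormBy g A) (hT : PropT N A (bsub A g) g)
    (x : G) (hx : x ∈ A) (hxB : x ∉ bsub A g) :
    ptr ρ P (g * x) = ptr ρ P g - (cent A g : ℂ) := by
  have hBA : bsub A g ≤ A := mdD_bsub_le A g hg
  have hBN : bsub A g ≤ N := hBA.trans hAN
  have hB0 : (Nat.card (bsub A g) : ℂ) ≠ 0 := Nat.cast_ne_zero.mpr Nat.card_pos.ne'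
  have hA0 : (Nat.card A : ℂ) ≠ 0 := Nat.cast_ne_zero.mpr Nat.card_pos.ne'
  have hD := lemD ρ N A P hP hAN hA τ hm g hgN hg hT
  have hgxN : g * x ∈ N := N.mul_mem hgN (hAN hx)
  have h8A := mdD_avg_one_A ρ N A P hP hAN τ hm
  -- V1
  have v1 : ptr ρ (P ∘ₗ avg ρ (bsub A g)) (g * x) = ptr ρ P (g * x) := by
    have h := ptr_avg ρ N (bsub A g) P hP hBN (g * x)
    rw [mdD_finsum_const (bsub A g) (fun b => ptr ρ P (g * x * b)) (ptr ρ P (g * x))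
      (fun b hb => ?_)] at h
    · exact mul_right_cancel₀ hB0 (h.trans (mul_comm _ _))
    · obtain ⟨y, hy, rfl⟩ := mdD_mem_bsub A hA g hg b hb
      have hc : x * y⁻¹ = y⁻¹ * x := hA x hx y⁻¹ (A.inv_mem hy)
      have e0 : y * (g * x) * y⁻¹ * (g * x)⁻¹ = y * g * y⁻¹ * g⁻¹ := by
        calc y * (g * x) * y⁻¹ * (g * x)⁻¹ = y * g * (x * y⁻¹) * x⁻¹ * g⁻¹ := by group
          _ = y * g * (y⁻¹ * x) * x⁻¹ * g⁻¹ := by rw [hc]
          _ = _ := by group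
      have e : g * x * (y * g * y⁻¹ * g⁻¹) = (g * x) * (y * (g * x) * y⁻¹) * (g * x)⁻¹ := by
        rw [← e0]
        group
      show ptr ρ P (g * x * (y * g * y⁻¹ * g⁻¹)) = ptr ρ P (g * x)
      rw [e, mdD_ptr_conj ρ N P hP (g * x) _ hgxN, mdD_ptr_conj ρ N P hP y _ (hAN hy)]
  -- V3
  have v3 : ptr ρ (P ∘ₗ avg ρ A) (g * x) = ptr ρ (P ∘ₗ avg ρ A) g := by
    have h1 := ptr_avg ρ N A P hP hAN (g * x)
    have h2 := ptr_avg ρ N A P hP hAN g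
    have h3 : ∑ᶠ y : A, ptr ρ P (g * x * (y : G)) = ∑ᶠ y : A, ptr ρ P (g * (y : G)) := by
      have h4 := mdD_finsum_shift A (fun y => ptr ρ P (g * y)) x hx
      simp only [← mul_assoc] at h4
      exact h4
    rw [h3, ← h2] at h1
    exact mul_right_cancel₀ hA0 h1
  -- V2
  have hx'A : g * x * g⁻¹ ∈ A := hg.1 x hx
  have hx'B : g * x * g⁻¹ ∉ bsub A g := by
    intro hcon
    apply hxB
    have hc : x⁻¹ * g * (x⁻¹)⁻¹ * g⁻¹ ∈ bsub A g :=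
      Subgroup.subset_closure ⟨x⁻¹, A.inv_mem hx, rfl⟩
    have h1 : x = (g * x * g⁻¹) * (x⁻¹ * g * (x⁻¹)⁻¹ * g⁻¹)⁻¹ := by group
    rw [h1]
    exact (bsub A g).mul_mem hcon ((bsub A g).inv_mem hc)
  have v2B : ptr ρ (P ∘ₗ avg ρ (bsub A g)) (g * x * g⁻¹) = τ := by
    have h := ptr_avg ρ N (bsub A g) P hP hBN (g * x * g⁻¹)
    rw [mdD_finsum_const (bsub A g) (fun b => ptr ρ P (g * x * g⁻¹ * b)) τ (fun b hb => ?_)] at h
    · exact mul_right_cancel₀ hB0 (h.trans (mul_comm _ _))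
    · apply hm.1 _ (A.mul_mem hx'A (hBA hb))
      intro h1
      apply hx'B
      have h2 : g * x * g⁻¹ = b⁻¹ := eq_inv_of_mul_eq_one_left h1
      rw [h2]
      exact (bsub A g).inv_mem hb
  have v2A : ptr ρ (P ∘ₗ avg ρ A) (g * x * g⁻¹) = τ + 1 := by
    have h1 := ptr_avg ρ N A P hP hAN (g * x * g⁻¹)
    have h2 := ptr_avg ρ N A P hP hAN 1
    have h3 : ∑ᶠ y : A, ptr ρ P (g * x * g⁻¹ * (y : G)) = ∑ᶠ y : A, ptr ρ P (1 * (y : G)) := by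
      have h4 := mdD_finsum_shift A (fun y => ptr ρ P y) (g * x * g⁻¹) hx'A
      simp only [one_mul]
      exact h4
    rw [h3, ← h2] at h1
    rw [mul_right_cancel₀ hA0 h1]
    exact h8A
  have h7 := core ρ N A P hP hAN hA τ hm g hgN hg (bsub A g) le_rfl hBA hT
  have h9 : ρ (g * x) ∘ₗ (P ∘ₗ (avg ρ (bsub A g) - avg ρ A)) =
      ρ (g * x * g⁻¹) ∘ₗ (P ∘ₗ (avg ρ (bsub A g) - avg ρ A)) := by
    have h1 : g * x = (g * x * g⁻¹) * g := by group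
    conv_lhs => rw [h1, map_mul, Module.End.mul_eq_comp, LinearMap.comp_assoc, h7]
  have h10 := congrArg (LinearMap.trace ℂ V) h9
  simp only [LinearMap.comp_sub, map_sub] at h10
  change ptr ρ (P ∘ₗ avg ρ (bsub A g)) (g * x) - ptr ρ (P ∘ₗ avg ρ A) (g * x) =
    ptr ρ (P ∘ₗ avg ρ (bsub A g)) (g * x * g⁻¹) - ptr ρ (P ∘ₗ avg ρ A) (g * x * g⁻¹) at h10
  rw [v1, v3, hD, v2B, v2A] at h10
  linear_combination h10

end

end Cfsg.Agent.Helper3
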