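import Mathlib
import Cfsg.Agent.Helper90.MDSLDefs
import Cfsg.Agent.Helper60.MDTools

/-!
# CALL S2332, piece MSIOTA (helper3): the embedding `SL(ker φ) → SL(V0)`
-/

set_option autoImplicit false

namespace Cfsg.Agent.Helper3

open Module Cfsg.Agent.Helper90.MD Cfsg.Agent.Helper60.MinIdx

section
variable {F V0 : Type*} [Field F] [Finite F] [AddCommGroup V0] [Module F V0] [Module.Finite F V0]

/-- PIECE MSIOTA -/
theorem exists_iota (hn : 3 ≤ finrank F V0) {φ : Dual F V0} (hφ : φ ≠ 0) :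
    ∃ (ι : SpecialLinearGroup F (LinearMap.ker φ) →* SpecialLinearGroup F V0)
      (γ : SpecialLinearGroup F (LinearMap.ker φ)) (ψ : Dual F V0) (b : V0),
      (∀ e, ι e ∈ normSub (Qsub φ)) ∧ LinearIndependent F ![φ, ψ] ∧ φ b = 0 ∧ ψ b = 0 ∧ b ≠ 0 ∧
        ι γ = tv ψ b := by
  classical
  -- a vector with `φ e0 = 1`
  obtain ⟨e0, he0⟩ : ∃ e0 : V0, φ e0 = 1 := by
    obtain ⟨x, hx⟩ : ∃ x, φ x ≠ 0 := by
      by_contra hcon
      push Not at hcon
      exact hφ (LinearMap.ext hcon)
    exact ⟨(φ x)⁻¹ • x, by rw [map_smul, smul_eq_mul, inv_mul_cancel₀ hx]⟩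
  have hK : 2 ≤ finrank F (LinearMap.ker φ) := by
    have h1 := Module.Dual.finrank_ker_add_one_of_ne_zero hφ
    omega
  -- the projection onto `ker φ` along `e0`
  obtain ⟨proj, hproj⟩ : ∃ proj : V0 →ₗ[F] LinearMap.ker φ,
      ∀ x, ((proj x : LinearMap.ker φ) : V0) = x - φ x • e0 :=
    ⟨LinearMap.codRestrict (LinearMap.ker φ)
        (LinearMap.id - (LinearMap.toSpanSingleton F V0 e0).comp φ) (fun x => by
          rw [LinearMap.mem_ker]
          simp [he0]), fun x => by simp⟩
  have hdec : ∀ x : V0, x = ((proj x : LinearMap.ker φ) : V0) + φ x • e0 := by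
    intro x
    rw [hproj]
    abel
  have hφK : ∀ k : LinearMap.ker φ, φ (k : V0) = 0 := fun k => LinearMap.mem_ker.mp k.2
  have hprojK : ∀ (k : LinearMap.ker φ) (c : F), proj ((k : V0) + c • e0) = k := by
    intro k c
    apply Subtype.ext
    rw [hproj, map_add, map_smul, hφK, he0, zero_add, smul_eq_mul, mul_one]
    abel
  -- the extension of `e`
  have hex : ∀ e : SpecialLinearGroup F (LinearMap.ker φ), ∃ h : SpecialLinearGroup F V0,
      ∀ x, h x = ((e (proj x) : LinearMap.ker φ) : V0) + φ x • e0 := by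
    intro e
    obtain ⟨g, hg1, hg2⟩ := sl_extend (LinearMap.ker φ) hK e
    have hk : φ (-(g e0 - e0)) = 0 := by
      rw [map_neg, LinearMap.mem_ker.mp (hg2 e0), neg_zero]
    refine ⟨tv φ (-(g e0 - e0)) * g, fun x => ?_⟩
    have hφg : φ (g x) = φ x := by
      have h1 := LinearMap.mem_ker.mp (hg2 x)
      rw [map_sub] at h1
      exact sub_eq_zero.mp h1
    have hgx : g x = ((e (proj x) : LinearMap.ker φ) : V0) + φ x • g e0 := by
      conv_lhs => rw [hdec x]
      rw [sl_map_add, sl_map_smul, hg1]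
    rw [sl_mul_apply, tv_apply hk, hφg, hgx, smul_neg, smul_sub]
    abel
  choose ιf hιf using hex
  have hφι : ∀ e x, φ (ιf e x) = φ x := by
    intro e x
    rw [hιf, map_add, map_smul, hφK, he0, zero_add, smul_eq_mul, mul_one]
  have hmul : ∀ e e' : SpecialLinearGroup F (LinearMap.ker φ), ιf (e * e') = ιf e * ιf e' := by
    intro e e'
    ext x
    rw [sl_mul_apply, hιf, hιf e (ιf e' x), hφι, hιf e' x, hprojK, sl_mul_apply]
  -- vectors and covectors in `ker φ`
  obtain ⟨b0, hb0⟩ : ∃ b0 : LinearMap.ker φ, b0 ≠ 0 := by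
    have h1 : 0 < finrank F (LinearMap.ker φ) := by omega
    exact Module.finrank_pos_iff_exists_ne_zero.mp h1
  obtain ⟨c0, hc0⟩ : ∃ c0 : LinearMap.ker φ, c0 ∉ Submodule.span F {b0} := by
    by_contra hcon
    push Not at hcon
    have h1 : Submodule.span F {b0} = ⊤ := eq_top_iff.mpr (fun x _ => hcon x)
    have h2 := finrank_span_singleton (K := F) hb0
    rw [h1, finrank_top] at h2
    omega
  obtain ⟨ψ0, hψb0, hψc0⟩ := exists_dual_zero_one hc0
  have hprojb : proj (b0 : V0) = b0 := by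
    have h1 := hprojK b0 0
    rw [zero_smul, add_zero] at h1
    exact h1
  have hprojc : proj (c0 : V0) = c0 := by
    have h1 := hprojK c0 0
    rw [zero_smul, add_zero] at h1
    exact h1
  have hproje : proj e0 = 0 := by
    have h1 := hprojK 0 1
    rw [one_smul, Submodule.coe_zero, zero_add] at h1
    exact h1
  have hψb : (ψ0.comp proj) (b0 : V0) = 0 := by
    rw [LinearMap.comp_apply, hprojb, hψb0]
  refine ⟨MonoidHom.mk' ιf hmul, tv ψ0 b0, ψ0.comp proj, (b0 : V0), ?_, ?_, hφK b0, hψb, ?_, ?_⟩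
  · intro e
    rw [mem_normSub]
    apply Cfsg.Agent.Helper60.MD.normBy_qsub_of_cg (μ := 1) one_ne_zero
    ext x
    rw [cg_apply, one_smul]
    have h1 := hφι e ((ιf e)⁻¹ x)
    rw [sl_apply_inv_apply] at h1
    exact h1.symm
  · rw [LinearIndependent.pair_iff]
    intro s t hst
    have h1 := congrArg (fun f : Dual F V0 => f e0) hst
    simp only [LinearMap.add_apply, LinearMap.smul_apply, LinearMap.comp_apply, he0, hproje,
      map_zero, smul_eq_mul, mul_one, mul_zero, add_zero, LinearMap.zero_apply] at h1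
    have h2 := congrArg (fun f : Dual F V0 => f (c0 : V0)) hst
    simp only [LinearMap.add_apply, LinearMap.smul_apply, LinearMap.comp_apply, hφK, hprojc,
      hψc0, smul_eq_mul, mul_one, mul_zero, zero_add, LinearMap.zero_apply] at h2
    exact ⟨h1, h2⟩
  · intro h
    exact hb0 (Subtype.ext h)
  · ext x
    show ιf (tv ψ0 b0) x = tv (ψ0.comp proj) (b0 : V0) x
    rw [hιf, tv_apply hψb0, tv_apply hψb, Submodule.coe_add, Submodule.coe_smul, hproj,
      LinearMap.comp_apply]
    abel

end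

end Cfsg.Agent.Helper3
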