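import Cfsg.Agent.Helper85.PiDefs

/-!
# CALL S5113, piece DL3 (helper3): the degree lemma for elements of `O^p(Aut_F(A))`
-/

set_option autoImplicit false

namespace Cfsg.Agent.Helper3.PiDL3

open Cfsg Cfsg.FusionSystem Cfsg.Agent.Helper85 Cfsg.Agent.Helper88

variable {Ω : Type*} [Group Ω] {S : Subgroup Ω}

theorem pi_dl3 [Finite S] {p : ℕ} [Fact p.Prime] (hS : IsPGroup p S) {F : FusionSystem S}
    {T R : Subgroup Ω} (c : PiCtx F p T R) (htr : PiTr F p) {A : Subgroup Ω} (hAR : F.IsConj A R)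
    (hAT : A ≤ T) {α : MulAut A} (hα : α ∈ PiO F p A) (hid : PiQ F p T R A id) :
    PiQ F p T R A (autFun α) := by
  intro χ₁ χ₂ a b u β₀ h1 h2 hu hβ₀ hrel
  have himg : img A (autFun α) = A := img_autFun α
  have hid' : img A (id : Ω → Ω) = A := by
    unfold img
    rw [Set.image_id, Subgroup.closure_eq]
  rw [himg] at h2
  have hAN : A ≤ normalizerIn T A := by
    intro x hx
    exact mem_normalizerIn_iff.mpr ⟨hAT hx, Subgroup.le_normalizer hx⟩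
  have hχ₁ : IsMap F A χ₁ := h1.1.restrict hAN
  have hα' : α⁻¹ ∈ PiO F p A := Subgroup.inv_mem _ hα
  obtain ⟨β₁, hβ₁, hβ₁e⟩ := htr A R χ₁ α⁻¹ hχ₁ h1.2.1 hα'
  have hχR : ∀ x ∈ A, χ₁ x ∈ R := by
    intro x hx
    have := hχ₁.apply_mem_img hx
    rwa [h1.2.1] at this
  refine hid χ₁ χ₂ a b u (β₀ * β₁) h1 (by rw [hid']; exact h2) hu (Subgroup.mul_mem _ hβ₀ hβ₁) ?_
  intro x hx
  have hx' : autFun α⁻¹ x ∈ A := autFun_mem _ hx
  have e1 := hrel (autFun α⁻¹ x) hx'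
  rw [autFun_apply_inv α hx] at e1
  show χ₂ x = u * autFun (β₀ * β₁) (χ₁ x) * u⁻¹
  rw [e1, autFun_mul β₀ β₁ (hχR x hx), hβ₁e x hx]

end Cfsg.Agent.Helper3.PiDL3
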