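import Mathlib
import Cfsg.Agent.Helper90.MDDefs
import Cfsg.Agent.Helper58.MDCORE
import Cfsg.Agent.Helper91.MDAVG

set_option autoImplicit false

/-!
# CALL S2343, piece FIX (helper3)
-/

namespace Cfsg.Agent.Helper3

open Cfsg.Agent.Helper90.MD

/-- PIECE FIX -/
theorem rmd43_fix {G : Type*} [Group G] [Finite G] {V : Type*} [AddCommGroup V] [Module ℂ V]
    [FiniteDimensional ℂ V] (ρ : Representation ℂ G V) (A : Subgroup G) [Fintype A] :
    ∃ r : ℕ, ∑ a : A, LinearMap.trace ℂ V (ρ (a : G)) = (Nat.card A : ℂ) * (r : ℂ) ∧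
      (r = Module.finrank ℂ V → ∀ a ∈ A, ρ a = 1) ∧
      (r = 0 → ∀ g : G, ∑ a : A, LinearMap.trace ℂ V (ρ (g * (a : G))) = 0) := by
  classical
  obtain ⟨P, hPdef⟩ : ∃ P : V →ₗ[ℂ] V, P = LinearMap.id ∘ₗ avg ρ A := ⟨_, rfl⟩
  have hP : IsProjFor ρ A P := by
    rw [hPdef]
    refine Cfsg.Agent.Helper91.avg_isProjFor ρ ⊤ A A LinearMap.id
      (Cfsg.Agent.Helper91.isProjFor_id ρ ⊤) le_top le_top ?_
    intro n hn
    exact ⟨fun x hx => A.mul_mem (A.mul_mem hn hx) (A.inv_mem hn),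
      fun x hx => A.mul_mem (A.mul_mem (A.inv_mem hn) hx) hn⟩
  have hsum : ∀ g : G, ptr ρ P g * (Nat.card A : ℂ) =
      ∑ a : A, LinearMap.trace ℂ V (ρ (g * (a : G))) := by
    intro g
    rw [hPdef, Cfsg.Agent.Helper91.ptr_avg ρ ⊤ A LinearMap.id
      (Cfsg.Agent.Helper91.isProjFor_id ρ ⊤) le_top g, finsum_eq_sum_of_fintype]
    apply Finset.sum_congr rfl
    intro x _
    unfold ptr
    rw [LinearMap.comp_id]
  have hr := Cfsg.Agent.Helper91.ptr_one_nat ρ A P hP
  refine ⟨Module.finrank ℂ (LinearMap.range P), ?_, ?_, ?_⟩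
  · have h1 := hsum 1
    rw [hr] at h1
    simp only [one_mul] at h1
    rw [← h1, mul_comm]
  · intro hfull a ha
    have htop : LinearMap.range P = ⊤ := Submodule.eq_top_of_finrank_eq hfull
    apply LinearMap.ext
    intro v
    have hv : v ∈ LinearMap.range P := by rw [htop]; trivial
    obtain ⟨w, rfl⟩ := hv
    have h2 : ρ a * P = P := by
      rw [hPdef, LinearMap.id_comp, Cfsg.Agent.Helper91.avg_eq_mdSum, mul_smul_comm,
        Cfsg.Agent.Helper91.mdSum_mul_left ρ A a ha]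
    have h3 := congrArg (fun f : V →ₗ[ℂ] V => f w) h2
    simpa using h3
  · intro h0 g
    have hbot : LinearMap.range P = ⊥ := Submodule.finrank_eq_zero.mp h0
    have hP0 : P = 0 := LinearMap.range_eq_bot.mp hbot
    rw [← hsum g, hP0]
    unfold ptr
    simp

end Cfsg.Agent.Helper3
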